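import Cfsg.Agent.Lib.NilpPerm.Trans

/-!
# Bounds on the order of nilpotent permutation groups
-/

set_option autoImplicit false

namespace Cfsg.Agent.Lib.NilpPerm.Bound

open Cfsg.Agent.Lib.NilpPerm.Num Cfsg.Agent.Lib.NilpPerm.UU Cfsg.Agent.Lib.NilpPerm.Trans
open scoped Nat
open MulAction Group

lemma sgn_split {α : Type*} [Finite α] (O : Set α) (f : Equiv.Perm α) (f₁ : Equiv.Perm O)
    (f₂ : Equiv.Perm ↥Oᶜ) (h₁ : ∀ x : O, (f₁ x : α) = f x) (h₂ : ∀ x : ↥Oᶜ, (f₂ x : α) = f x) :
    sgn f = sgn f₁ * sgn f₂ := by
  classical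
  letI := Fintype.ofFinite α
  rw [sgn_eq, sgn_eq, sgn_eq]
  have e : f = (Equiv.Set.sumCompl O).permCongr (Equiv.Perm.sumCongr f₁ f₂) := by
    ext x
    by_cases hx : x ∈ O
    · rw [Equiv.permCongr_apply, Equiv.Set.sumCompl_symm_apply_of_mem hx]
      simp [h₁ ⟨x, hx⟩]
    · rw [Equiv.permCongr_apply, Equiv.Set.sumCompl_symm_apply_of_notMem hx]
      simp [h₂ ⟨x, hx⟩]
  conv_lhs => rw [e]
  rw [Equiv.Perm.sign_permCongr, Equiv.Perm.sign_sumCongr]

section split

variable {G α : Type} [Group G] [MulAction G α]

/-- The action on the complement of an orbit. -/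
instance complAction (a : α) : MulAction G ↥((orbit G a)ᶜ) where
  smul g x := ⟨g • (x : α), by
    intro hc
    apply x.2
    obtain ⟨h, e⟩ := hc
    refine ⟨g⁻¹ * h, ?_⟩
    change (g⁻¹ * h) • a = x
    rw [mul_smul]
    have e' : h • a = g • (x : α) := e
    rw [e', inv_smul_smul]⟩
  one_smul x := Subtype.ext (one_smul G (x : α))
  mul_smul g h x := Subtype.ext (mul_smul g h (x : α))

lemma compl_smul_coe (a : α) (g : G) (x : ↥((orbit G a)ᶜ)) : ((g • x : ↥((orbit G a)ᶜ)) : α) = g • (x : α) :=
  rfl

/-- The image of `G` acting on the orbit. -/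
abbrev G₁ (G : Type) {α : Type} [Group G] [MulAction G α] (a : α) :
    Subgroup (Equiv.Perm (orbit G a)) :=
  (toPermHom G (orbit G a)).range

/-- The image of `G` acting on the complement. -/
abbrev G₂ (G : Type) {α : Type} [Group G] [MulAction G α] (a : α) :
    Subgroup (Equiv.Perm ↥((orbit G a)ᶜ)) :=
  (toPermHom G ↥((orbit G a)ᶜ)).range

/-- The map to the product. -/
noncomputable def psi (a : α) : G →* (G₁ G a) × (G₂ G a) :=
  (toPermHom G (orbit G a)).rangeRestrict.prod (toPermHom G ↥((orbit G a)ᶜ)).rangeRestrict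

lemma psi_injective [FaithfulSMul G α] (a : α) : Function.Injective (psi (G := G) a) := by
  rw [injective_iff_map_eq_one]
  intro g hg
  apply FaithfulSMul.eq_of_smul_eq_smul (α := α)
  intro x
  rw [one_smul]
  have h1 := congrArg Prod.fst hg
  have h2 := congrArg Prod.snd hg
  by_cases hx : x ∈ orbit G a
  · have h3 := congrArg (fun f : G₁ G a => ((f : Equiv.Perm (orbit G a)) ⟨x, hx⟩ : α)) h1
    exact h3
  · have h3 := congrArg (fun f : G₂ G a => ((f : Equiv.Perm ↥((orbit G a)ᶜ)) ⟨x, hx⟩ : α)) h2
    exact h3

instance G₁_pretrans (a : α) : IsPretransitive (G₁ G a) (orbit G a) where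
  exists_smul_eq x y := by
    obtain ⟨g, hg⟩ := exists_smul_eq G x y
    exact ⟨⟨toPermHom G (orbit G a) g, ⟨g, rfl⟩⟩, hg⟩

lemma card_add (a : α) [Finite α] :
    Nat.card (orbit G a) + Nat.card ↥((orbit G a)ᶜ) = Nat.card α := by
  classical
  rw [← Nat.card_sum]
  exact Nat.card_congr (Equiv.Set.sumCompl _)

end split

/-- The bound for the symmetric group. -/
theorem bS_bound (n : ℕ) : ∀ (G α : Type) [Group G] [Finite G] [Finite α] [MulAction G α]
    [FaithfulSMul G α] [IsNilpotent G], Nat.card α = n → Nat.card G ≤ bS n := by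
  induction n using Nat.strong_induction_on with
  | _ n ih =>
    intro G α _ _ _ _ _ _ hα
    by_cases hem : IsEmpty α
    · haveI : Subsingleton G := by
        constructor
        intro g h
        apply FaithfulSMul.eq_of_smul_eq_smul (α := α)
        intro x
        exact (hem.false x).elim
      rw [Nat.card_of_subsingleton (1 : G)]
      have hn : n = 0 := by rw [← hα]; exact Nat.card_of_isEmpty
      subst hn
      simp [bS, aa_zero]
    · rw [not_isEmpty_iff] at hem
      obtain ⟨a⟩ := hem
      have hadd := card_add (G := G) a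
      rw [hα] at hadd
      have hm : 1 ≤ Nat.card (orbit G a) := by
        haveI : Nonempty (orbit G a) := ⟨⟨a, mem_orbit_self a⟩⟩
        exact Nat.card_pos
      haveI : IsNilpotent (G₁ G a) :=
        Group.nilpotent_of_surjective (toPermHom G (orbit G a)).rangeRestrict
          (MonoidHom.rangeRestrict_surjective _)
      haveI : IsNilpotent (G₂ G a) :=
        Group.nilpotent_of_surjective (toPermHom G ↥((orbit G a)ᶜ)).rangeRestrict
          (MonoidHom.rangeRestrict_surjective _)
      haveI : Nonempty (orbit G a) := ⟨⟨a, mem_orbit_self a⟩⟩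
      have h1 : Nat.card (G₁ G a) ≤ tau (Nat.card (orbit G a)) :=
        le_trans card_le_UU (UU_le_tau (by omega))
      have h2 : Nat.card (G₂ G a) ≤ bS (Nat.card ↥((orbit G a)ᶜ)) :=
        ih _ (by omega) (G₂ G a) ↥((orbit G a)ᶜ) rfl
      have h3 : Nat.card G ≤ Nat.card (G₁ G a) * Nat.card (G₂ G a) := by
        rw [← Nat.card_prod]
        exact Nat.card_le_card_of_injective _ (psi_injective a)
      calc Nat.card G ≤ Nat.card (G₁ G a) * Nat.card (G₂ G a) := h3
        _ ≤ tau (Nat.card (orbit G a)) * bS (Nat.card ↥((orbit G a)ᶜ)) := Nat.mul_le_mul h1 h2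
        _ ≤ bS (Nat.card (orbit G a) + Nat.card ↥((orbit G a)ᶜ)) := tau_mul_bS _ _
        _ = bS n := by rw [hadd]

/-- The bound for the alternating group. -/
theorem tt_bound (n : ℕ) : ∀ (G α : Type) [Group G] [Finite G] [Finite α] [MulAction G α]
    [FaithfulSMul G α] [IsNilpotent G], Nat.card α = n →
    (∀ g : G, sgn (MulAction.toPerm g : Equiv.Perm α) = 1) → Nat.card G ≤ tt n := by
  induction n using Nat.strong_induction_on with
  | _ n ih =>
    intro G α _ _ _ _ _ _ hα hsgn
    by_cases hem : IsEmpty α
    · haveI : Subsingleton G := by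
        constructor
        intro g h
        apply FaithfulSMul.eq_of_smul_eq_smul (α := α)
        intro x
        exact (hem.false x).elim
      rw [Nat.card_of_subsingleton (1 : G)]
      have hn : n = 0 := by rw [← hα]; exact Nat.card_of_isEmpty
      subst hn
      simp [tt]
    · rw [not_isEmpty_iff] at hem
      obtain ⟨a⟩ := hem
      have hadd := card_add (G := G) a
      rw [hα] at hadd
      have hm : 1 ≤ Nat.card (orbit G a) := by
        haveI : Nonempty (orbit G a) := ⟨⟨a, mem_orbit_self a⟩⟩
        exact Nat.card_pos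
      haveI : IsNilpotent (G₁ G a) :=
        Group.nilpotent_of_surjective (toPermHom G (orbit G a)).rangeRestrict
          (MonoidHom.rangeRestrict_surjective _)
      haveI : IsNilpotent (G₂ G a) :=
        Group.nilpotent_of_surjective (toPermHom G ↥((orbit G a)ᶜ)).rangeRestrict
          (MonoidHom.rangeRestrict_surjective _)
      haveI : Nonempty (orbit G a) := ⟨⟨a, mem_orbit_self a⟩⟩
      have hsplit : ∀ g : G, sgn (MulAction.toPerm g : Equiv.Perm α) =
          sgn (MulAction.toPerm g : Equiv.Perm (orbit G a)) *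
            sgn (MulAction.toPerm g : Equiv.Perm ↥((orbit G a)ᶜ)) := by
        intro g
        exact sgn_split _ _ _ _ (fun _ => rfl) (fun _ => rfl)
      have h3 : Nat.card G ≤ Nat.card (G₁ G a) * Nat.card (G₂ G a) := by
        rw [← Nat.card_prod]
        exact Nat.card_le_card_of_injective _ (psi_injective a)
      by_cases hev : ∀ g : G, sgn (MulAction.toPerm g : Equiv.Perm (orbit G a)) = 1
      · have hev2 : ∀ g : G, sgn (MulAction.toPerm g : Equiv.Perm ↥((orbit G a)ᶜ)) = 1 := by
          intro g
          have h4 := hsplit g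
          rw [hsgn g, hev g, one_mul] at h4
          exact h4.symm
        have h1 : Nat.card (G₁ G a) ≤ cc (Nat.card (orbit G a)) := by
          apply card_le_cc
          rintro ⟨_, g, rfl⟩
          exact hev g
        have h2 : Nat.card (G₂ G a) ≤ tt (Nat.card ↥((orbit G a)ᶜ)) := by
          apply ih _ (by omega) (G₂ G a) ↥((orbit G a)ᶜ) rfl
          rintro ⟨_, g, rfl⟩
          exact hev2 g
        calc Nat.card G ≤ Nat.card (G₁ G a) * Nat.card (G₂ G a) := h3
          _ ≤ cc (Nat.card (orbit G a)) * tt (Nat.card ↥((orbit G a)ᶜ)) := Nat.mul_le_mul h1 h2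
          _ ≤ tt (Nat.card (orbit G a) + Nat.card ↥((orbit G a)ᶜ)) := cc_mul_tt hm _
          _ = tt n := by rw [hadd]
      · -- an odd element on the orbit: the image is proper
        push Not at hev
        obtain ⟨g₀, hg₀⟩ := hev
        have h1 : Nat.card (G₁ G a) ≤ tau (Nat.card (orbit G a)) :=
          le_trans card_le_UU (UU_le_tau (by omega))
        have h2 : Nat.card (G₂ G a) ≤ bS (Nat.card ↥((orbit G a)ᶜ)) :=
          Cfsg.Agent.Lib.NilpPerm.Bound.bS_bound _ (G₂ G a) ↥((orbit G a)ᶜ) rfl
        have hprop : (psi (G := G) a).range ≠ ⊤ := by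
          intro htop
          have hmem : ((toPermHom G (orbit G a)).rangeRestrict g₀, (1 : G₂ G a)) ∈
              (psi (G := G) a).range := by
            rw [htop]; trivial
          obtain ⟨g₁, hg₁⟩ := hmem
          have e1 := congrArg Prod.fst hg₁
          have e2 := congrArg Prod.snd hg₁
          have e3 : (MulAction.toPerm g₁ : Equiv.Perm (orbit G a)) = MulAction.toPerm g₀ :=
            congrArg Subtype.val e1
          have e4 : (MulAction.toPerm g₁ : Equiv.Perm ↥((orbit G a)ᶜ)) = 1 :=
            congrArg Subtype.val e2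
          have h4 := hsplit g₁
          rw [hsgn g₁, e3, e4, map_one, mul_one] at h4
          exact hg₀ h4.symm
        have hind : Nat.card (psi (G := G) a).range * (psi (G := G) a).range.index =
            Nat.card (G₁ G a) * Nat.card (G₂ G a) := by
          rw [Subgroup.card_mul_index, Nat.card_prod]
        have hind1 : (psi (G := G) a).range.index ≠ 1 := by
          rw [Ne, Subgroup.index_eq_one]
          exact hprop
        have hind0 : (psi (G := G) a).range.index ≠ 0 := Subgroup.index_ne_zero_of_finite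
        have hind2 : 2 ≤ (psi (G := G) a).range.index := by omega
        have hcardrange : Nat.card (psi (G := G) a).range = Nat.card G :=
          Nat.card_congr (MonoidHom.ofInjective (psi_injective a)).toEquiv.symm
        rw [hcardrange] at hind
        have h5 : 2 * Nat.card G ≤ tau (Nat.card (orbit G a)) * bS (Nat.card ↥((orbit G a)ᶜ)) := by
          calc 2 * Nat.card G ≤ (psi (G := G) a).range.index * Nat.card G :=
                Nat.mul_le_mul_right _ hind2
            _ = Nat.card (G₁ G a) * Nat.card (G₂ G a) := by rw [mul_comm]; exact hind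
            _ ≤ _ := Nat.mul_le_mul h1 h2
        have h6 := tau_mul_bS (Nat.card (orbit G a)) (Nat.card ↥((orbit G a)ᶜ))
        rw [hadd] at h6
        have h7 := bS_le_two_tt n
        omega

end Cfsg.Agent.Lib.NilpPerm.Bound
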