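import Cfsg.Agent.Lib.NilpPerm.Unique

/-!
# Existence of the largest nilpotent subgroups
-/

set_option autoImplicit false

namespace Cfsg.Agent.Lib.NilpPerm.Exist

open Cfsg.Agent.Lib.NilpPerm.Num Cfsg.Agent.Lib.NilpPerm.Orbit Cfsg.Agent.Lib.NilpPerm.Final
open MulAction Group

/-- An identification of the points. -/
noncomputable def eqv {n : ℕ} (hn : 3 ≤ n) : ZMod 3 ⊕ Fin (n - 3) ≃ Fin n :=
  Fintype.equivFinOfCardEq (by simp [ZMod.card]; omega)

/-- The regular action of the cyclic group of order 3. -/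
def rho : Multiplicative (ZMod 3) →* Equiv.Perm (ZMod 3) := MulAction.toPermHom _ _

lemma rho_injective : Function.Injective rho := by
  rw [injective_iff_map_eq_one]
  intro c hc
  have h1 := congrArg (fun f : Equiv.Perm (ZMod 3) => f 0) hc
  have h2 : Multiplicative.toAdd c + 0 = 0 := h1
  rw [add_zero] at h2
  exact Multiplicative.toAdd.injective h2

lemma sign_rho (c : Multiplicative (ZMod 3)) : Equiv.Perm.sign (rho c) = 1 := by
  have h3 : c ^ 3 = 1 := by
    revert c
    decide
  have h4 : (Equiv.Perm.sign (rho c)) ^ 3 = 1 := by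
    rw [← map_pow, ← map_pow, h3, map_one, map_one]
  rcases Int.units_eq_one_or (Equiv.Perm.sign (rho c)) with h | h
  · exact h
  · rw [h] at h4
    exact absurd h4 (by decide)

/-- The embedding. -/
noncomputable def theta {n : ℕ} (hn : 3 ≤ n) :
    Equiv.Perm (Fin (n - 3)) × Multiplicative (ZMod 3) →* Equiv.Perm (Fin n) :=
  (eqv hn).permCongrHom.toMonoidHom.comp ((Equiv.Perm.sumCongrHom (ZMod 3) (Fin (n - 3))).comp
    ((rho.comp (MonoidHom.snd _ _)).prod (MonoidHom.fst _ _)))

lemma theta_injective {n : ℕ} (hn : 3 ≤ n) : Function.Injective (theta hn) := by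
  intro x y h
  have h1 := (eqv hn).permCongrHom.injective h
  have h2 := Equiv.Perm.sumCongrHom_injective h1
  have h3 := congrArg Prod.fst h2
  have h4 := congrArg Prod.snd h2
  exact Prod.ext h4 (rho_injective h3)

lemma sign_theta {n : ℕ} (hn : 3 ≤ n) (x : Equiv.Perm (Fin (n - 3)) × Multiplicative (ZMod 3)) :
    Equiv.Perm.sign (theta hn x) = Equiv.Perm.sign x.1 := by
  change Equiv.Perm.sign ((eqv hn).permCongr (Equiv.Perm.sumCongr (rho x.2) x.1)) = _
  rw [Equiv.Perm.sign_permCongr, Equiv.Perm.sign_sumCongr, sign_rho, one_mul]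

theorem exists_perm {n : ℕ} (hn : 3 ≤ n) (P : Sylow 2 (Equiv.Perm (Fin (n - 3)))) :
    ∃ M : Subgroup (Equiv.Perm (Fin n)), IsNilpotent M ∧ Nat.card M = 3 * Nat.card P ∧
      Nonempty (M ≃* (↥(P : Subgroup (Equiv.Perm (Fin (n - 3)))) × Multiplicative (ZMod 3))) := by
  let f : ↥(P : Subgroup (Equiv.Perm (Fin (n - 3)))) × Multiplicative (ZMod 3) →*
      Equiv.Perm (Fin n) :=
    (theta hn).comp ((P : Subgroup (Equiv.Perm (Fin (n - 3)))).subtype.prodMap (MonoidHom.id _))
  have hf : Function.Injective f := by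
    refine (theta_injective hn).comp ?_
    exact Function.Injective.prodMap (Subgroup.subtype_injective _) Function.injective_id
  let e := MonoidHom.ofInjective hf
  haveI : IsNilpotent ↥(P : Subgroup (Equiv.Perm (Fin (n - 3)))) := P.isPGroup'.isNilpotent
  refine ⟨f.range, Group.nilpotent_of_mulEquiv e, ?_, ⟨e.symm⟩⟩
  rw [← Nat.card_congr e.toEquiv, Nat.card_prod]
  have : Nat.card (Multiplicative (ZMod 3)) = 3 := by
    rw [Nat.card_congr Multiplicative.toAdd]
    simp [ZMod.card]
  rw [this, mul_comm]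

theorem exists_alt {n : ℕ} (hn : 3 ≤ n) (P : Sylow 2 (alternatingGroup (Fin (n - 3)))) :
    ∃ M : Subgroup (alternatingGroup (Fin n)), IsNilpotent M ∧ Nat.card M = 3 * Nat.card P ∧
      Nonempty (M ≃* (↥(P : Subgroup (alternatingGroup (Fin (n - 3)))) × Multiplicative (ZMod 3))) := by
  let f₀ : ↥(P : Subgroup (alternatingGroup (Fin (n - 3)))) × Multiplicative (ZMod 3) →*
      Equiv.Perm (Fin n) :=
    (theta hn).comp (((alternatingGroup (Fin (n - 3))).subtype.comp
      (P : Subgroup (alternatingGroup (Fin (n - 3)))).subtype).prodMap (MonoidHom.id _))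
  have hf₀ : ∀ x, f₀ x ∈ alternatingGroup (Fin n) := by
    intro x
    rw [Equiv.Perm.mem_alternatingGroup]
    change Equiv.Perm.sign (theta hn _) = 1
    rw [sign_theta]
    exact x.1.1.2
  let f := f₀.codRestrict (alternatingGroup (Fin n)) hf₀
  have hf : Function.Injective f := by
    intro x y h
    have h1 : f₀ x = f₀ y := congrArg Subtype.val h
    have h2 := theta_injective hn h1
    have h3 := congrArg Prod.fst h2
    have h4 := congrArg Prod.snd h2
    refine Prod.ext ?_ h4
    apply Subtype.ext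
    apply Subtype.ext
    exact h3
  let e := MonoidHom.ofInjective hf
  haveI : IsNilpotent ↥(P : Subgroup (alternatingGroup (Fin (n - 3)))) := P.isPGroup'.isNilpotent
  refine ⟨f.range, Group.nilpotent_of_mulEquiv e, ?_, ⟨e.symm⟩⟩
  rw [← Nat.card_congr e.toEquiv, Nat.card_prod]
  have : Nat.card (Multiplicative (ZMod 3)) = 3 := by
    rw [Nat.card_congr Multiplicative.toAdd]
    simp [ZMod.card]
  rw [this, mul_comm]

end Cfsg.Agent.Lib.NilpPerm.Exist
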