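import Cfsg.Agent.Lib.NilpPerm.Bound

/-!
# Sylow orders and the bounds for `S_n`, `A_n`
-/

set_option autoImplicit false

namespace Cfsg.Agent.Lib.NilpPerm.Final

open Cfsg.Agent.Lib.NilpPerm.Num Cfsg.Agent.Lib.NilpPerm.UU Cfsg.Agent.Lib.NilpPerm.Trans
open Cfsg.Agent.Lib.NilpPerm.Bound
open scoped Nat
open MulAction Group

instance fact_two : Fact (Nat.Prime 2) := ⟨Nat.prime_two⟩

lemma card_sylow_perm {n : ℕ} (P : Sylow 2 (Equiv.Perm (Fin n))) : Nat.card P = aa n := by
  rw [Sylow.card_eq_multiplicity, Nat.card_perm, Nat.card_fin]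
  rfl

lemma two_mul_card_sylow_alt {n : ℕ} (h : 2 ≤ n) (P : Sylow 2 (alternatingGroup (Fin n))) :
    2 * Nat.card P = aa n := by
  haveI : Nontrivial (Fin n) := by
    rw [← Finite.one_lt_card_iff_nontrivial, Nat.card_fin]
    omega
  have h1 := two_mul_nat_card_alternatingGroup (α := Fin n)
  rw [Nat.card_perm, Nat.card_fin] at h1
  rw [Sylow.card_eq_multiplicity, aa, vv, ← h1,
    Nat.factorization_mul (by norm_num) Nat.card_pos.ne']
  simp [Nat.Prime.factorization_self Nat.prime_two]
  ring

lemma card_sylow_alt {n : ℕ} (h : 2 ≤ n) (P : Sylow 2 (alternatingGroup (Fin n))) :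
    Nat.card P = hh n := by
  have h1 := two_mul_card_sylow_alt h P
  have h2 := two_mul_hh h
  omega

lemma card_sylow_alt_small {n : ℕ} (h : n ≤ 1) (P : Sylow 2 (alternatingGroup (Fin n))) :
    Nat.card P = 1 := by
  haveI : Subsingleton (Fin n) := by
    interval_cases n <;> infer_instance
  haveI : Subsingleton (Equiv.Perm (Fin n)) := inferInstance
  haveI : Subsingleton (alternatingGroup (Fin n)) := inferInstance
  rw [Nat.card_eq_one_iff_unique]
  exact ⟨inferInstance, ⟨1⟩⟩

/-- The bound for subgroups of a symmetric group. -/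
theorem perm_bound {n : ℕ} (N : Subgroup (Equiv.Perm (Fin n))) [IsNilpotent N] :
    Nat.card N ≤ bS n :=
  bS_bound n N (Fin n) (Nat.card_fin n)

/-- The bound for even subgroups of a symmetric group. -/
theorem even_bound {n : ℕ} (N : Subgroup (Equiv.Perm (Fin n))) [IsNilpotent N]
    (hN : ∀ x ∈ N, Equiv.Perm.sign x = 1) : Nat.card N ≤ tt n := by
  refine tt_bound n N (Fin n) (Nat.card_fin n) ?_
  intro g
  rw [sgn_eq]
  exact hN g.1 g.2

/-- The image of a subgroup of the alternating group in the symmetric group. -/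
abbrev toPermSub {n : ℕ} (N : Subgroup (alternatingGroup (Fin n))) : Subgroup (Equiv.Perm (Fin n)) :=
  N.map (alternatingGroup (Fin n)).subtype

lemma card_toPermSub {n : ℕ} (N : Subgroup (alternatingGroup (Fin n))) :
    Nat.card (toPermSub N) = Nat.card N :=
  Nat.card_congr (N.equivMapOfInjective _ (Subgroup.subtype_injective _)).toEquiv.symm

lemma nilp_toPermSub {n : ℕ} (N : Subgroup (alternatingGroup (Fin n))) [IsNilpotent N] :
    IsNilpotent (toPermSub N) :=
  Group.nilpotent_of_mulEquiv (N.equivMapOfInjective _ (Subgroup.subtype_injective _))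

lemma even_toPermSub {n : ℕ} (N : Subgroup (alternatingGroup (Fin n))) :
    ∀ x ∈ toPermSub N, Equiv.Perm.sign x = 1 := by
  rintro _ ⟨y, _, rfl⟩
  exact y.2

/-- The bound for subgroups of an alternating group. -/
theorem alt_bound {n : ℕ} (N : Subgroup (alternatingGroup (Fin n))) [IsNilpotent N] :
    Nat.card N ≤ tt n := by
  haveI := nilp_toPermSub N
  rw [← card_toPermSub]
  exact even_bound _ (even_toPermSub N)

end Cfsg.Agent.Lib.NilpPerm.Final
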