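import Mathlib

/-!
# Numerics for the order of nilpotent subgroups of symmetric groups
-/

set_option autoImplicit false

namespace Cfsg.Agent.Lib.NilpPerm.Num

open scoped Nat

/-- The exponent of `2` in `n!`. -/
noncomputable def vv (n : ℕ) : ℕ := (n !).factorization 2

/-- The `2`-part of `n!`. -/
noncomputable def aa (n : ℕ) : ℕ := 2 ^ vv n

lemma vv_eq (n : ℕ) : vv n = n - (Nat.digits 2 n).sum := by
  haveI : Fact (Nat.Prime 2) := ⟨Nat.prime_two⟩
  have := sub_one_mul_padicValNat_factorial (p := 2) n
  rw [vv, Nat.factorization_def _ Nat.prime_two]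
  simpa using this

lemma aa_pos (n : ℕ) : 0 < aa n := by
  unfold aa; positivity

lemma vv_add (x y : ℕ) : vv x + vv y ≤ vv (x + y) := by
  unfold vv
  have h1 : x ! * y ! ∣ (x + y)! := Nat.factorial_mul_factorial_dvd_factorial_add x y
  have h2 := (Nat.factorization_le_iff_dvd (by positivity) (by positivity)).2 h1
  have h3 := h2 2
  rw [Nat.factorization_mul (by positivity) (by positivity)] at h3
  simpa using h3

lemma aa_add (x y : ℕ) : aa x * aa y ≤ aa (x + y) := by
  unfold aa
  rw [← pow_add]
  exact Nat.pow_le_pow_right (by norm_num) (vv_add x y)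

lemma vv_mono {x y : ℕ} (h : x ≤ y) : vv x ≤ vv y := by
  obtain ⟨z, rfl⟩ := Nat.exists_eq_add_of_le h
  exact le_trans (Nat.le_add_right _ _) (vv_add x z)

lemma aa_mono {x y : ℕ} (h : x ≤ y) : aa x ≤ aa y :=
  Nat.pow_le_pow_right (by norm_num) (vv_mono h)

lemma vv_succ (n : ℕ) : vv (n + 1) = vv n + (n + 1).factorization 2 := by
  unfold vv
  rw [Nat.factorial_succ, Nat.factorization_mul (by omega) (by positivity)]
  simp [add_comm]

lemma fact_zero_of_odd {m : ℕ} (h : m % 2 = 1) : m.factorization 2 = 0 :=
  Nat.factorization_eq_zero_of_not_dvd (by omega)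

lemma one_le_fact {m : ℕ} (h0 : m ≠ 0) (h : m % 2 = 0) : 1 ≤ m.factorization 2 := by
  have : 2 ^ 1 ∣ m := by
    rw [pow_one]; omega
  exact (Nat.Prime.pow_dvd_iff_le_factorization Nat.prime_two h0).1 this

lemma two_le_fact {m : ℕ} (h0 : m ≠ 0) (h : m % 4 = 0) : 2 ≤ m.factorization 2 := by
  have : 2 ^ 2 ∣ m := by
    norm_num; omega
  exact (Nat.Prime.pow_dvd_iff_le_factorization Nat.prime_two h0).1 this

lemma fact_one_of_two_mod_four {m : ℕ} (h : m % 4 = 2) : m.factorization 2 = 1 := by
  have h0 : m ≠ 0 := by omega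
  have h1 := one_le_fact h0 (by omega)
  by_contra h2
  have : 2 ≤ m.factorization 2 := by omega
  have h3 := (Nat.Prime.pow_dvd_iff_le_factorization Nat.prime_two h0).2 this
  norm_num at h3
  omega

/-- Three steps, not ending at a residue `3` mod `4`. -/
lemma four_mul_le (k : ℕ) (h : (k + 3) % 4 ≠ 3) : 4 * aa k ≤ aa (k + 3) := by
  unfold aa
  have e : vv (k + 3) = vv k + (k + 1).factorization 2 + (k + 2).factorization 2 +
      (k + 3).factorization 2 := by
    rw [show k + 3 = (k + 2) + 1 by ring, vv_succ, show k + 2 = (k + 1) + 1 by ring, vv_succ, vv_succ]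
  have h2 : 2 + vv k ≤ vv (k + 3) := by
    rw [e]
    have hcases : k % 4 = 1 ∨ k % 4 = 2 ∨ k % 4 = 3 := by omega
    rcases hcases with h1 | h1 | h1
    · have := one_le_fact (m := k + 1) (by omega) (by omega)
      have := two_le_fact (m := k + 3) (by omega) (by omega)
      omega
    · have := two_le_fact (m := k + 2) (by omega) (by omega)
      omega
    · have := two_le_fact (m := k + 1) (by omega) (by omega)
      omega
  calc 4 * 2 ^ vv k = 2 ^ (2 + vv k) := by rw [pow_add]; norm_num
    _ ≤ 2 ^ vv (k + 3) := Nat.pow_le_pow_right (by norm_num) h2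

lemma three_mul_le (k : ℕ) (h : (k + 3) % 4 ≠ 3) : 3 * aa k ≤ aa (k + 3) :=
  le_trans (Nat.mul_le_mul_right _ (by norm_num)) (four_mul_le k h)

/-- Three steps ending at a residue `3` mod `4`. -/
lemma aa_add_three (k : ℕ) (h : (k + 3) % 4 = 3) : aa (k + 3) = 2 * aa k := by
  unfold aa
  have e : vv (k + 3) = vv k + (k + 1).factorization 2 + (k + 2).factorization 2 +
      (k + 3).factorization 2 := by
    rw [show k + 3 = (k + 2) + 1 by ring, vv_succ, show k + 2 = (k + 1) + 1 by ring, vv_succ, vv_succ]
  have e1 := fact_zero_of_odd (m := k + 1) (by omega)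
  have e2 := fact_one_of_two_mod_four (m := k + 2) (by omega)
  have e3 := fact_zero_of_odd (m := k + 3) (by omega)
  rw [e, e1, e2, e3, add_zero, add_zero, pow_succ]
  ring

/-- At a multiple of four. -/
lemma four_mul_pred_le {k : ℕ} (h0 : k ≠ 0) (h : k % 4 = 0) : 4 * aa (k - 1) ≤ aa k := by
  obtain ⟨j, rfl⟩ : ∃ j, k = j + 1 := ⟨k - 1, by omega⟩
  unfold aa
  rw [Nat.add_sub_cancel, vv_succ]
  have := two_le_fact (m := j + 1) (by omega) h
  calc 4 * 2 ^ vv j = 2 ^ (vv j + 2) := by rw [pow_add]; ring
    _ ≤ 2 ^ (vv j + (j + 1).factorization 2) := Nat.pow_le_pow_right (by norm_num) (by omega)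

lemma aa_zero : aa 0 = 1 := by simp [aa, vv_eq]
lemma aa_one : aa 1 = 1 := by simp [aa, vv_eq]
lemma aa_two : aa 2 = 2 := by simp [aa, vv_eq]
lemma aa_three : aa 3 = 2 := by simp [aa, vv_eq]
lemma aa_four : aa 4 = 8 := by simp [aa, vv_eq]
lemma aa_five : aa 5 = 8 := by simp [aa, vv_eq]
lemma aa_six : aa 6 = 16 := by simp [aa, vv_eq]
lemma aa_seven : aa 7 = 16 := by simp [aa, vv_eq]
lemma aa_nine : aa 9 = 128 := by simp [aa, vv_eq]
lemma aa_25 : aa 25 = 2 ^ 22 := by simp [aa, vv_eq]
lemma aa_27 : aa 27 = 2 ^ 23 := by simp [aa, vv_eq]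

lemma nine_mul_le {n : ℕ} (h : 6 ≤ n) : 9 * aa (n - 6) ≤ aa n := by
  have := aa_add 6 (n - 6)
  rw [aa_six, show 6 + (n - 6) = n by omega] at this
  nlinarith [aa_pos (n - 6)]

/-- The bound for the symmetric group. -/
noncomputable def bS (n : ℕ) : ℕ := if n % 4 = 3 then 3 * aa (n - 3) else aa n

lemma aa_le_bS (n : ℕ) : aa n ≤ bS n := by
  unfold bS
  split_ifs with h
  · have := aa_add_three (n - 3) (by omega)
    rw [show n - 3 + 3 = n by omega] at this
    rw [this]
    nlinarith [aa_pos (n - 3)]
  · exact le_rfl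

lemma three_le_bS {n : ℕ} (h3 : 3 ≤ n) : 3 * aa (n - 3) ≤ bS n := by
  unfold bS
  split_ifs with h
  · exact le_rfl
  · have := three_mul_le (n - 3) (by omega)
    rwa [show n - 3 + 3 = n by omega] at this

/-- The bound for a transitive group. -/
noncomputable def tau (m : ℕ) : ℕ := if m = 3 then 3 else aa m

/-- The inductive step for the symmetric group. -/
lemma tau_mul_bS (m k : ℕ) : tau m * bS k ≤ bS (m + k) := by
  unfold tau
  by_cases hm : m = 3
  · subst hm
    rw [if_pos rfl]
    by_cases hk : k % 4 = 3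
    · rw [bS, if_pos hk]
      have h1 := nine_mul_le (n := 3 + k) (by omega)
      rw [show 3 + k - 6 = k - 3 by omega] at h1
      have h2 := aa_le_bS (3 + k)
      nlinarith
    · rw [bS, if_neg hk]
      have := three_le_bS (n := 3 + k) (by omega)
      rwa [show 3 + k - 3 = k by omega] at this
  · rw [if_neg hm]
    by_cases hk : k % 4 = 3
    · rw [bS, if_pos hk]
      have h1 := aa_add m (k - 3)
      have h2 := three_le_bS (n := m + k) (by omega)
      rw [show m + k - 3 = m + (k - 3) by omega] at h2
      nlinarith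
    · rw [bS, if_neg hk]
      exact le_trans (aa_add m k) (aa_le_bS _)

/-- Half of `aa`. -/
noncomputable def hh (n : ℕ) : ℕ := aa n / 2

lemma two_mul_hh {n : ℕ} (h : 2 ≤ n) : 2 * hh n = aa n := by
  unfold hh
  have : 2 ∣ aa n := by
    have h1 : aa 2 ∣ aa n := by
      unfold aa
      exact pow_dvd_pow _ (vv_mono h)
    rw [aa_two] at h1
    exact h1
  exact Nat.mul_div_cancel' this

/-- The bound for the alternating group. -/
noncomputable def tt (n : ℕ) : ℕ :=
  if n = 0 ∨ n = 1 then 1 else if n = 3 then 3 else if n = 5 then 5 else if n = 6 then 9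
  else if n = 9 then 81 else if n % 4 = 3 then 3 * hh (n - 3) else hh n

/-- The exceptional values. -/
def IsExc (n : ℕ) : Prop := n = 0 ∨ n = 1 ∨ n = 3 ∨ n = 5 ∨ n = 6 ∨ n = 9

lemma tt_of_not_exc {n : ℕ} (h : ¬ IsExc n) :
    tt n = if n % 4 = 3 then 3 * hh (n - 3) else hh n := by
  unfold IsExc at h
  unfold tt
  push Not at h
  obtain ⟨h0, h1, h3, h5, h6, h9⟩ := h
  simp [h0, h1, h3, h5, h6, h9]

lemma two_tt_of_not_exc {n : ℕ} (h : ¬ IsExc n) :
    2 * tt n = if n % 4 = 3 then 3 * aa (n - 3) else aa n := by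
  rw [tt_of_not_exc h]
  unfold IsExc at h
  push Not at h
  split_ifs with h4
  · have : 2 ≤ n - 3 := by omega
    rw [← two_mul_hh this]
    ring
  · exact two_mul_hh (by omega)

lemma bS_le_two_tt (n : ℕ) : bS n ≤ 2 * tt n := by
  by_cases h : IsExc n
  · rcases h with rfl | rfl | rfl | rfl | rfl | rfl <;> simp [bS, tt, aa, vv_eq]
  · rw [two_tt_of_not_exc h]
    rfl

lemma aa_le_two_tt (n : ℕ) : aa n ≤ 2 * tt n := le_trans (aa_le_bS n) (bS_le_two_tt n)

lemma three_le_two_tt {n : ℕ} (h : 3 ≤ n) : 3 * aa (n - 3) ≤ 2 * tt n :=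
  le_trans (three_le_bS h) (bS_le_two_tt n)

lemma tt_le_aa {k : ℕ} (h3 : k ≠ 3) : tt k ≤ aa k := by
  by_cases h : IsExc k
  · rcases h with rfl | rfl | rfl | rfl | rfl | rfl <;> simp_all [tt, aa, vv_eq]
  · have h2 := two_tt_of_not_exc h
    split_ifs at h2 with h4
    · have := aa_add_three (k - 3) (by omega)
      rw [show k - 3 + 3 = k by omega] at this
      rw [this]
      have h5 := aa_pos (k - 3)
      omega
    · have h5 := aa_pos k
      omega

/-- The bound for an even transitive group. -/
noncomputable def cc (m : ℕ) : ℕ :=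
  if m = 1 then 1 else if m = 3 then 3 else if m = 5 then 5 else if m = 9 then 81 else hh m

/-- The inductive step for the alternating group. -/
lemma cc_mul_tt {m : ℕ} (hm : 1 ≤ m) (k : ℕ) : cc m * tt k ≤ tt (m + k) := by
  by_cases hE : m = 1 ∨ m = 3 ∨ m = 5 ∨ m = 9
  · by_cases hk : IsExc k
    · rcases hE with rfl | rfl | rfl | rfl <;> rcases hk with rfl | rfl | rfl | rfl | rfl | rfl <;>
        simp [cc, tt, hh, aa, vv_eq]
    · have h2 := two_tt_of_not_exc hk
      rcases hE with rfl | rfl | rfl | rfl
      · have hc : cc 1 = 1 := by simp [cc]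
        rw [hc, one_mul]
        split_ifs at h2 with h4
        · have h5 := aa_add 1 (k - 3)
          have h6 := three_le_two_tt (n := 1 + k) (by omega)
          rw [show 1 + k - 3 = 1 + (k - 3) by omega] at h6
          rw [aa_one, one_mul] at h5
          omega
        · have h5 := aa_add 1 k
          rw [aa_one, one_mul] at h5
          have h6 := aa_le_two_tt (1 + k)
          omega
      · have hc : cc 3 = 3 := by simp [cc]
        rw [hc]
        split_ifs at h2 with h4
        · have h5 := nine_mul_le (n := 3 + k) (by omega)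
          rw [show 3 + k - 6 = k - 3 by omega] at h5
          have h6 := aa_le_two_tt (3 + k)
          omega
        · have h6 := three_le_two_tt (n := 3 + k) (by omega)
          rw [show 3 + k - 3 = k by omega] at h6
          omega
      · have hc : cc 5 = 5 := by simp [cc]
        rw [hc]
        split_ifs at h2 with h4
        · have h5 := aa_add 5 (k - 3)
          rw [aa_five] at h5
          have h6 := three_le_two_tt (n := 5 + k) (by omega)
          rw [show 5 + k - 3 = 5 + (k - 3) by omega] at h6
          have h7 := aa_pos (k - 3)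
          omega
        · have h5 := aa_add 5 k
          rw [aa_five] at h5
          have h6 := aa_le_two_tt (5 + k)
          have h7 := aa_pos k
          omega
      · have hc : cc 9 = 81 := by simp [cc]
        rw [hc]
        split_ifs at h2 with h4
        · have h5 := aa_add 9 (k - 3)
          rw [aa_nine] at h5
          have h6 := three_le_two_tt (n := 9 + k) (by omega)
          rw [show 9 + k - 3 = 9 + (k - 3) by omega] at h6
          have h7 := aa_pos (k - 3)
          omega
        · have h5 := aa_add 9 k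
          rw [aa_nine] at h5
          have h6 := aa_le_two_tt (9 + k)
          have h7 := aa_pos k
          omega
  · push Not at hE
    obtain ⟨h1, h3, h5, h9⟩ := hE
    have hm2 : 2 ≤ m := by omega
    have hc : 2 * cc m = aa m := by
      unfold cc
      simp only [h1, h3, h5, h9, if_false]
      exact two_mul_hh hm2
    by_cases hk3 : k = 3
    · subst hk3
      have h6 := three_le_two_tt (n := m + 3) (by omega)
      rw [show m + 3 - 3 = m by omega, ← hc] at h6
      have : tt 3 = 3 := by simp [tt]
      rw [this]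
      omega
    by_cases hk : IsExc k
    · have h4 := tt_le_aa hk3
      have h5 := aa_add m k
      have h6 := aa_le_two_tt (m + k)
      have h7 : aa m * tt k ≤ aa m * aa k := Nat.mul_le_mul_left _ h4
      rw [← hc] at h7
      rw [← hc] at h5
      nlinarith
    · have h2 := two_tt_of_not_exc hk
      split_ifs at h2 with h4
      · have h5 := aa_add m (k - 3)
        have h6 := three_le_two_tt (n := m + k) (by omega)
        rw [show m + k - 3 = m + (k - 3) by omega] at h6
        rw [← hc] at h5
        nlinarith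
      · have h5 := aa_add m k
        have h6 := aa_le_two_tt (m + k)
        rw [← hc] at h5
        nlinarith

end Cfsg.Agent.Lib.NilpPerm.Num
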