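import Cfsg.Agent.Lib.NilpPerm.Final

/-!
# 2-groups centralizing an element of order 3
-/

set_option autoImplicit false

namespace Cfsg.Agent.Lib.NilpPerm.Orbit

open Cfsg.Agent.Lib.NilpPerm.Num
open scoped Nat
open MulAction Group

variable {α : Type*}

/-- Orbits of a permutation. -/
abbrev Q (c : Equiv.Perm α) : Type _ := orbitRel.Quotient (Subgroup.zpowers c) α

/-- The centralizer of a permutation. -/
abbrev Cn (c : Equiv.Perm α) : Subgroup (Equiv.Perm α) := Subgroup.centralizer {c}

lemma commute_of_mem_Cn {c : Equiv.Perm α} (r : Cn c) (h : Subgroup.zpowers c) :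
    (r : Equiv.Perm α) * h = h * (r : Equiv.Perm α) := by
  obtain ⟨h, i, rfl⟩ := h
  have h1 : Commute (c) (r : Equiv.Perm α) := by
    have := r.2
    rw [Subgroup.mem_centralizer_iff] at this
    exact this c rfl
  exact (h1.zpow_left i).symm

lemma rel_iff {c : Equiv.Perm α} (r : Cn c) (a b : α) :
    (orbitRel (Subgroup.zpowers c) α) a b ↔
      (orbitRel (Subgroup.zpowers c) α) ((r : Equiv.Perm α) a) ((r : Equiv.Perm α) b) := by
  rw [orbitRel_apply, orbitRel_apply]
  constructor
  · rintro ⟨h, rfl⟩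
    refine ⟨h, ?_⟩
    have := congrArg (fun f : Equiv.Perm α => f b) (commute_of_mem_Cn r h)
    exact this.symm
  · rintro ⟨h, e⟩
    refine ⟨h, ?_⟩
    have := congrArg (fun f : Equiv.Perm α => f b) (commute_of_mem_Cn r h)
    apply (r : Equiv.Perm α).injective
    have e' : (h : Equiv.Perm α) ((r : Equiv.Perm α) b) = (r : Equiv.Perm α) a := e
    change (r : Equiv.Perm α) ((h : Equiv.Perm α) b) = (r : Equiv.Perm α) a
    rw [← e']
    exact this

/-- The action of the centralizer on the orbits. -/
def qHom (c : Equiv.Perm α) : Cn c →* Equiv.Perm (Q c) where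
  toFun r := Quotient.congr (r : Equiv.Perm α) (rel_iff r)
  map_one' := by
    ext q
    induction q using Quotient.inductionOn
    rfl
  map_mul' r s := by
    ext q
    induction q using Quotient.inductionOn
    rfl

lemma qHom_mk {c : Equiv.Perm α} (r : Cn c) (a : α) :
    qHom c r (Quotient.mk _ a) = Quotient.mk _ ((r : Equiv.Perm α) a) :=
  rfl

/-- A permutation of order dividing `3` and an element commuting. -/
lemma fix_of_pow {h r : Equiv.Perm α} {a : α} {k : ℕ} (hcomm : r * h = h * r) (h3 : h ^ 3 = 1)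
    (hr : r ^ (2 ^ k) = 1) (e : h a = r a) : r a = a := by
  have hpow : ∀ j : ℕ, (r ^ j) a = (h ^ j) a := by
    intro j
    induction j with
    | zero => simp
    | succ j ih =>
      rw [pow_succ, Equiv.Perm.mul_apply, ← e]
      have h1 : Commute (r ^ j) h := (show Commute r h from hcomm).pow_left j
      have h2 := congrArg (fun f : Equiv.Perm α => f a) h1.eq
      simp only [Equiv.Perm.mul_apply] at h2
      rw [h2, ih, pow_succ', Equiv.Perm.mul_apply]
  have h5 := hpow (2 ^ k)
  rw [hr, Equiv.Perm.one_apply] at h5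
  have hm : 2 ^ k % 3 = 1 ∨ 2 ^ k % 3 = 2 := by
    have h6 : ¬ 3 ∣ 2 ^ k := by
      intro h7
      have := Nat.prime_three.dvd_of_dvd_pow h7
      omega
    omega
  have h6 : h ^ (2 ^ k) = h ^ (2 ^ k % 3) := pow_eq_pow_mod _ h3
  rw [h6] at h5
  rw [← e]
  rcases hm with hm | hm
  · rw [hm, pow_one] at h5
    exact h5.symm
  · rw [hm] at h5
    have h7 : h = h ^ 2 * h ^ 2 := by
      calc h = h ^ 3 * h := by rw [h3, one_mul]
        _ = h ^ 2 * h ^ 2 := by group
    have h8 : (h ^ 2) a = a := h5.symm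
    calc h a = (h ^ 2 * h ^ 2) a := by rw [← h7]
      _ = (h ^ 2) ((h ^ 2) a) := rfl
      _ = a := by rw [h8, h8]

/-- Counting fibres. -/
lemma card_add_four {X Y : Type*} [Fintype X] [Fintype Y] [DecidableEq Y] (f : X → Y)
    (hf : Function.Surjective f) {x y : Y} (hxy : x ≠ y)
    (hx : 3 ≤ (Finset.univ.filter (fun a => f a = x)).card)
    (hy : 3 ≤ (Finset.univ.filter (fun a => f a = y)).card) :
    Fintype.card Y + 4 ≤ Fintype.card X := by
  have h := Finset.card_eq_sum_card_fiberwise (f := f) (s := Finset.univ) (t := Finset.univ)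
    (fun a _ => Finset.mem_univ _)
  have hu : ∀ z : Y, 1 ≤ (Finset.univ.filter (fun a => f a = z)).card := by
    intro z
    obtain ⟨a, rfl⟩ := hf z
    exact Finset.card_pos.2 ⟨a, by simp⟩
  set u : Y → ℕ := fun z => (Finset.univ.filter (fun a => f a = z)).card with hu_def
  have h1 : ∑ z ∈ Finset.univ, u z = u x + ∑ z ∈ Finset.univ.erase x, u z :=
    (Finset.add_sum_erase _ _ (Finset.mem_univ x)).symm
  have hy' : y ∈ Finset.univ.erase x := by simp [hxy.symm]
  have h2 : ∑ z ∈ Finset.univ.erase x, u z = u y + ∑ z ∈ (Finset.univ.erase x).erase y, u z :=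
    (Finset.add_sum_erase _ _ hy').symm
  have h3 : ((Finset.univ.erase x).erase y).card • 1 ≤ ∑ z ∈ (Finset.univ.erase x).erase y, u z :=
    Finset.card_nsmul_le_sum _ _ _ (fun z _ => hu z)
  have h4 : ((Finset.univ.erase x).erase y).card + 2 = Fintype.card Y := by
    rw [Finset.card_erase_of_mem hy', Finset.card_erase_of_mem (Finset.mem_univ x),
      Finset.card_univ]
    have : 2 ≤ Fintype.card Y := by
      have h5 : ({x, y} : Finset Y).card = 2 := Finset.card_pair hxy
      rw [← h5]
      exact Finset.card_le_univ _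
    omega
  simp only [smul_eq_mul, mul_one] at h3
  have h5 : Fintype.card X = ∑ z ∈ Finset.univ, u z := h
  have hux : 3 ≤ u x := hx
  have huy : 3 ≤ u y := hy
  omega

/-- Main estimate: a 2-group centralizing an element of order 3 that isn't a 3-cycle. -/
theorem le_aa_of_centralizes [Fintype α] [DecidableEq α] {c : Equiv.Perm α} (hc3 : c ^ 3 = 1)
    (hc1 : c ≠ 1) (hnot : ¬ c.IsThreeCycle) (R : Subgroup (Equiv.Perm α)) (k : ℕ)
    (hR : Nat.card R = 2 ^ k) (hcomm : ∀ r ∈ R, r * c = c * r) :
    4 ≤ Fintype.card α ∧ 2 ^ k ≤ aa (Fintype.card α - 4) := by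
  classical
  letI : Fintype (Q c) := Fintype.ofFinite _
  -- the points
  obtain ⟨a, ha⟩ : ∃ a, c a ≠ a := by
    by_contra hh
    push Not at hh
    exact hc1 (Equiv.ext hh)
  have hthree : ∀ x : α, c x ≠ x → x ≠ c x ∧ x ≠ (c ^ 2) x ∧ c x ≠ (c ^ 2) x := by
    intro x hx
    have h2 : (c ^ 2) x = c (c x) := rfl
    have h3 : c ((c ^ 2) x) = x := by
      have : (c ^ 3) x = x := by rw [hc3]; rfl
      exact this
    refine ⟨hx.symm, ?_, ?_⟩
    · intro h
      rw [← h] at h3
      exact hx h3
    · rw [h2]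
      intro h
      exact hx (c.injective h).symm
  have hfin3 : ∀ x : α, c x ≠ x → ({x, c x, (c ^ 2) x} : Finset α).card = 3 := by
    intro x hx
    obtain ⟨h1, h2, h3⟩ := hthree x hx
    exact Finset.card_eq_three.2 ⟨_, _, _, h1, h2, h3, rfl⟩
  have hsupp : ∀ x : α, c x ≠ x → ({x, c x, (c ^ 2) x} : Finset α) ⊆ c.support := by
    intro x hx y hy
    simp only [Finset.mem_insert, Finset.mem_singleton] at hy
    rw [Equiv.Perm.mem_support]
    rcases hy with rfl | rfl | rfl
    · exact hx
    · exact fun h => hx (c.injective h)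
    · intro h
      have h1 : c ((c ^ 2) x) = x := by
        have : (c ^ 3) x = x := by rw [hc3]; rfl
        exact this
      exact (hthree x hx).2.1 (h1.symm.trans h)
  have hlt : ({a, c a, (c ^ 2) a} : Finset α).card < c.support.card := by
    rw [hfin3 a ha]
    have h1 := Finset.card_le_card (hsupp a ha)
    rw [hfin3 a ha] at h1
    have h2 : c.support.card ≠ 3 := fun h => hnot (card_support_eq_three_iff.1 h)
    omega
  obtain ⟨b, hb, hb2⟩ := Finset.exists_mem_notMem_of_card_lt_card hlt
  have hb' : c b ≠ b := Equiv.Perm.mem_support.1 hb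
  -- the quotient map
  let π : α → Q c := fun x => Quotient.mk _ x
  have hπ : Function.Surjective π := Quotient.mk_surjective
  have hπc : ∀ (x : α) (i : ℕ), π ((c ^ i) x) = π x := by
    intro x i
    apply Quotient.sound
    exact orbitRel_apply.2 ⟨⟨c ^ i, Subgroup.npow_mem_zpowers c i⟩, rfl⟩
  have hfib : ∀ x : α, c x ≠ x → 3 ≤ (Finset.univ.filter (fun y => π y = π x)).card := by
    intro x hx
    rw [← hfin3 x hx]
    apply Finset.card_le_card
    intro y hy
    simp only [Finset.mem_insert, Finset.mem_singleton] at hy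
    simp only [Finset.mem_filter, Finset.mem_univ, true_and]
    rcases hy with rfl | rfl | rfl
    · rfl
    · exact hπc x 1
    · exact hπc x 2
  have hne : π a ≠ π b := by
    intro h
    have h1 : (orbitRel (Subgroup.zpowers c) α) a b := Quotient.exact h
    rw [orbitRel_apply] at h1
    -- a = h • b, so b = h⁻¹ • a
    have h2 : b ∈ orbit (Subgroup.zpowers c) a := by
      have := (orbit_eq_iff.2 h1)
      rw [this]
      exact mem_orbit_self b
    obtain ⟨⟨_, i, rfl⟩, e⟩ := h2
    have e' : (c ^ i) a = b := e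
    rw [zpow_eq_zpow_emod i (n := 3) (by exact_mod_cast hc3)] at e'
    have h3 : i % 3 = 0 ∨ i % 3 = 1 ∨ i % 3 = 2 := by omega
    apply hb2
    simp only [Finset.mem_insert, Finset.mem_singleton]
    rcases h3 with h3 | h3 | h3 <;> rw [h3] at e'
    · left; simpa using e'.symm
    · right; left; simpa using e'.symm
    · right; right; exact e'.symm
  have hcardQ := card_add_four π hπ hne (hfib a ha) (hfib b hb')
  refine ⟨by omega, ?_⟩
  -- the homomorphism
  have hle : R ≤ Cn c := by
    intro r hr
    rw [Subgroup.mem_centralizer_iff]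
    intro g hg
    rw [Set.mem_singleton_iff] at hg
    subst hg
    exact (hcomm r hr).symm
  let ψ : R →* Equiv.Perm (Q c) := (qHom c).comp (Subgroup.inclusion hle)
  have hψ : Function.Injective ψ := by
    rw [injective_iff_map_eq_one]
    rintro ⟨r, hr⟩ hψr
    have hrk : r ^ (2 ^ k) = 1 := by
      have h1 : (⟨r, hr⟩ : R) ^ Nat.card R = 1 := pow_card_eq_one'
      rw [hR] at h1
      exact congrArg Subtype.val h1
    apply Subtype.ext
    apply Equiv.ext
    intro x
    have h1 : π (r x) = π x := by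
      have := congrArg (fun f : Equiv.Perm (Q c) => f (π x)) hψr
      exact this
    have h2 : (orbitRel (Subgroup.zpowers c) α) (r x) x := Quotient.exact h1
    rw [orbitRel_apply] at h2
    obtain ⟨⟨_, i, rfl⟩, e⟩ := h2
    have e' : (c ^ i) x = r x := e
    refine fix_of_pow (h := c ^ i) (k := k) ?_ ?_ hrk e'
    · exact (Commute.zpow_right (show Commute r c from hcomm r hr) i).eq
    · rw [← zpow_natCast, ← zpow_mul, mul_comm, zpow_mul]
      simp [hc3, ← zpow_natCast]
  have hdvd : Nat.card R ∣ Nat.card (Equiv.Perm (Q c)) := Subgroup.card_dvd_of_injective ψ hψ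
  rw [hR, Nat.card_perm] at hdvd
  have h3 : k ≤ vv (Nat.card (Q c)) :=
    (Nat.Prime.pow_dvd_iff_le_factorization Nat.prime_two (Nat.factorial_ne_zero _)).1 hdvd
  have h4 : 2 ^ k ≤ aa (Nat.card (Q c)) := Nat.pow_le_pow_right (by norm_num) h3
  refine le_trans h4 (aa_mono ?_)
  rw [Nat.card_eq_fintype_card]
  omega

end Cfsg.Agent.Lib.NilpPerm.Orbit
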