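import Cfsg.Agent.Lib.NilpPerm.UU

/-!
# Transitive nilpotent groups
-/

set_option autoImplicit false

namespace Cfsg.Agent.Lib.NilpPerm.Trans

open Cfsg.Agent.Lib.NilpPerm.Num Cfsg.Agent.Lib.NilpPerm.UU
open scoped Nat
open MulAction Group

variable {G : Type*} [Group G] [Finite G]

/-- The sign with classical instances. -/
noncomputable def sgn {α : Type*} [Finite α] : Equiv.Perm α →* ℤˣ :=
  letI := Classical.decEq α
  letI := Fintype.ofFinite α
  Equiv.Perm.sign

lemma sgn_eq {α : Type*} [Finite α] [Fintype α] [DecidableEq α] (f : Equiv.Perm α) :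
    sgn f = Equiv.Perm.sign f := by
  unfold sgn
  congr! 2

/-- A Sylow subgroup and its centralizer generate a finite nilpotent group. -/
lemma sylow_sup_centralizer [IsNilpotent G] {p : ℕ} [Fact p.Prime] (P : Sylow p G) :
    (P : Subgroup G) ⊔ Subgroup.centralizer (P : Set G) = ⊤ := by
  set S := (P : Subgroup G) ⊔ Subgroup.centralizer (P : Set G) with hS
  have hdvd : Nat.card G ∣ Nat.card S := by
    rw [← Nat.factorization_prime_le_iff_dvd Nat.card_pos.ne' Nat.card_pos.ne']
    intro q hq
    haveI : Fact q.Prime := ⟨hq⟩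
    obtain ⟨R⟩ : Nonempty (Sylow q G) := inferInstance
    have hR : (R : Subgroup G) ≤ S := by
      by_cases hqp : q = p
      · subst hqp
        haveI := Sylow.unique_of_normal P inferInstance
        have : R = P := Subsingleton.elim _ _
        rw [this]
        exact le_sup_left
      · refine le_trans ?_ le_sup_right
        intro x hx
        rw [Subgroup.mem_centralizer_iff]
        intro y hy
        have hd : Disjoint (P : Subgroup G) (R : Subgroup G) :=
          IsPGroup.disjoint_of_ne p q (Ne.symm hqp) _ _ P.isPGroup' R.isPGroup'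
        exact (Subgroup.commute_of_normal_of_disjoint _ _ inferInstance inferInstance hd y x hy hx)
    have h1 : Nat.card R ∣ Nat.card S := Subgroup.card_dvd_of_le hR
    rw [Sylow.card_eq_multiplicity] at h1
    exact (Nat.Prime.pow_dvd_iff_le_factorization hq Nat.card_pos.ne').1 h1
  have h2 : Nat.card S = Nat.card G :=
    Nat.dvd_antisymm (Subgroup.card_subgroup_dvd_card S) hdvd
  exact Subgroup.eq_top_of_card_eq S h2

/-- Decomposition of elements with respect to a Sylow subgroup. -/
lemma exists_decomp [IsNilpotent G] {p : ℕ} [Fact p.Prime] (P : Sylow p G) (g : G) :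
    ∃ y ∈ Subgroup.centralizer (P : Set G), ∃ x ∈ (P : Subgroup G), y * x = g := by
  have h := sylow_sup_centralizer P
  rw [sup_comm] at h
  have h1 : g ∈ Subgroup.centralizer (P : Set G) ⊔ (P : Subgroup G) := by
    rw [h]; trivial
  rw [← SetLike.mem_coe, Subgroup.mul_normal, Set.mem_mul] at h1
  obtain ⟨y, hy, x, hx, e⟩ := h1
  exact ⟨y, hy, x, hx, e⟩

section action

variable {Ω : Type*} [Finite Ω] [MulAction G Ω] [FaithfulSMul G Ω] [IsPretransitive G Ω]

theorem sylow_bound [IsNilpotent G] [Nonempty Ω] {p : ℕ} [hp : Fact p.Prime] :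
    (Nat.card G).factorization p ≤ gg p ((Nat.card Ω).factorization p) := by
  obtain ⟨P⟩ : Nonempty (Sylow p G) := inferInstance
  obtain ⟨ω⟩ : Nonempty Ω := inferInstance
  have hPc := Sylow.card_eq_multiplicity P
  obtain ⟨e, he⟩ := (P.isPGroup').card_orbit ω
  have hblock : IsBlock G (orbit (P : Subgroup G) ω) := IsBlock.orbit_of_normal ω
  have hdvd := hblock.ncard_dvd_card ⟨ω, mem_orbit_self ω⟩
  rw [← Nat.card_coe_set_eq, he] at hdvd
  have hm : Nat.card Ω ≠ 0 := Nat.card_pos.ne'
  have hle : e ≤ (Nat.card Ω).factorization p :=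
    (Nat.Prime.pow_dvd_iff_le_factorization hp.out hm).1 hdvd
  -- faithfulness
  let ff : (P : Subgroup G) →* Equiv.Perm (orbit (P : Subgroup G) ω) :=
    MulAction.toPermHom (P : Subgroup G) (orbit (P : Subgroup G) ω)
  have hff : Function.Injective ff := by
    rw [injective_iff_map_eq_one]
    intro k hk
    have hfix : ∀ x ∈ (P : Subgroup G), (k : G) • (x • ω) = x • ω := by
      intro x hx
      have h1 := congrArg (fun f : Equiv.Perm (orbit (P : Subgroup G) ω) =>
        ((f ⟨(⟨x, hx⟩ : (P : Subgroup G)) • ω, mem_orbit _ _⟩ :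
          orbit (P : Subgroup G) ω) : Ω)) hk
      simp only [ff, map_one] at h1
      exact h1
    have h1 : (k : G) = 1 := by
      apply FaithfulSMul.eq_of_smul_eq_smul (α := Ω)
      intro w
      obtain ⟨g, rfl⟩ := exists_smul_eq G ω w
      obtain ⟨y, hy, x, hx, rfl⟩ := exists_decomp P g
      rw [one_smul]
      have hc : (k : G) * y = y * k := by
        rw [Subgroup.mem_centralizer_iff] at hy
        exact hy k k.2
      rw [← smul_smul, ← mul_smul, hc, mul_smul, hfix x hx]
    exact Subtype.ext h1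
  have h1 : Nat.card P ∣ Nat.card (Equiv.Perm (orbit (P : Subgroup G) ω)) :=
    Subgroup.card_dvd_of_injective ff hff
  rw [Nat.card_perm, he, hPc] at h1
  have h2 : (p ^ e)! ∣ (p ^ (Nat.card Ω).factorization p)! :=
    Nat.factorial_dvd_factorial (Nat.pow_le_pow_right hp.out.pos hle)
  exact (Nat.Prime.pow_dvd_iff_le_factorization hp.out (Nat.factorial_ne_zero _)).1
    (h1.trans h2)

lemma primeFactors_subset [IsNilpotent G] [Nonempty Ω] :
    (Nat.card G).primeFactors ⊆ (Nat.card Ω).primeFactors := by
  intro p hp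
  have hpp := Nat.prime_of_mem_primeFactors hp
  haveI : Fact p.Prime := ⟨hpp⟩
  have h1 := sylow_bound (G := G) (Ω := Ω) (p := p)
  have h2 : 1 ≤ (Nat.card G).factorization p :=
    (Nat.Prime.dvd_iff_one_le_factorization hpp Nat.card_pos.ne').1 (Nat.dvd_of_mem_primeFactors hp)
  by_contra hc
  have h3 : (Nat.card Ω).factorization p = 0 := by
    rw [← Finsupp.notMem_support_iff]
    simpa using hc
  rw [h3, gg_zero] at h1
  omega

theorem card_le_UU [IsNilpotent G] [Nonempty Ω] : Nat.card G ≤ UU (Nat.card Ω) := by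
  have hG : Nat.card G ≠ 0 := Nat.card_pos.ne'
  calc Nat.card G = (Nat.card G).factorization.prod (· ^ ·) :=
        (Nat.prod_factorization_pow_eq_self hG).symm
    _ = ∏ p ∈ (Nat.card G).primeFactors, p ^ (Nat.card G).factorization p := rfl
    _ ≤ ∏ p ∈ (Nat.card G).primeFactors, ww p ((Nat.card Ω).factorization p) := by
        apply Finset.prod_le_prod'
        intro p hp
        have hpp := Nat.prime_of_mem_primeFactors hp
        haveI : Fact p.Prime := ⟨hpp⟩
        exact Nat.pow_le_pow_right hpp.pos (sylow_bound (G := G) (Ω := Ω) (p := p))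
    _ ≤ ∏ p ∈ (Nat.card Ω).primeFactors, ww p ((Nat.card Ω).factorization p) := by
        apply Finset.prod_le_prod_of_subset_of_one_le' primeFactors_subset
        intro p hp _
        have hpp := Nat.prime_of_mem_primeFactors hp
        exact Nat.one_le_pow _ _ hpp.pos
    _ = UU (Nat.card Ω) := rfl

/-- The even case. -/
theorem card_le_cc [IsNilpotent G] [Nonempty Ω]
    (hsgn : ∀ g : G, sgn (MulAction.toPerm g : Equiv.Perm Ω) = 1) :
    Nat.card G ≤ cc (Nat.card Ω) := by
  have hm : Nat.card Ω ≠ 0 := Nat.card_pos.ne'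
  have h0 := card_le_UU (G := G) (Ω := Ω)
  have hcc : ¬ (Nat.card Ω = 1 ∨ Nat.card Ω = 3 ∨ Nat.card Ω = 5 ∨ Nat.card Ω = 9) →
      cc (Nat.card Ω) = hh (Nat.card Ω) := by
    intro h
    push Not at h
    obtain ⟨h1, h2, h3, h4⟩ := h
    simp [cc, h1, h2, h3, h4]
  rcases UU_cases hm with ⟨_, h⟩ | ⟨e, he1, he2⟩ | ⟨hE, h⟩
  · rwa [← h]
  · have hpf : (Nat.card Ω).primeFactors = {2} := by
      rw [he2]
      exact Nat.primeFactors_prime_pow (by omega) Nat.prime_two
    have hE : ¬ (Nat.card Ω = 1 ∨ Nat.card Ω = 3 ∨ Nat.card Ω = 5 ∨ Nat.card Ω = 9) := by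
      have h2 : 2 ∣ Nat.card Ω := by
        rw [he2]
        exact dvd_pow_self 2 (by omega)
      omega
    rw [hcc hE]
    have h2 : Nat.card G = 2 ^ (Nat.card G).primeFactorsList.length := by
      apply Nat.eq_prime_pow_of_unique_prime_dvd Nat.card_pos.ne'
      intro d hd hdG
      have := primeFactors_subset (G := G) (Ω := Ω)
        (Nat.mem_primeFactors.2 ⟨hd, hdG, Nat.card_pos.ne'⟩)
      rw [hpf] at this
      simpa using this
    set a := (Nat.card G).primeFactorsList.length
    classical
    letI := Fintype.ofFinite Ω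
    haveI : Nontrivial Ω := by
      rw [← Finite.one_lt_card_iff_nontrivial]
      have : 2 ^ 1 ≤ 2 ^ e := Nat.pow_le_pow_right (by norm_num) he1
      omega
    let ff : G →* alternatingGroup Ω := (MulAction.toPermHom G Ω).codRestrict (alternatingGroup Ω) (by
      intro g
      rw [Equiv.Perm.mem_alternatingGroup, ← sgn_eq]
      exact hsgn g)
    have hff : Function.Injective ff := by
      rw [injective_iff_map_eq_one]
      intro g hg
      apply FaithfulSMul.eq_of_smul_eq_smul (α := Ω)
      intro w
      have h1 := congrArg (fun f : alternatingGroup Ω => (f : Equiv.Perm Ω) w) hg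
      simpa [ff] using h1
    have h3 : Nat.card G ∣ Nat.card (alternatingGroup Ω) := Subgroup.card_dvd_of_injective ff hff
    have h4 : 2 * Nat.card (alternatingGroup Ω) = (Nat.card Ω)! := by
      have := two_mul_nat_card_alternatingGroup (α := Ω)
      rwa [Nat.card_perm] at this
    have h5 : 2 ^ (a + 1) ∣ (Nat.card Ω)! := by
      rw [← h4, pow_succ', ← h2]
      exact Nat.mul_dvd_mul_left 2 h3
    have h6 : a + 1 ≤ vv (Nat.card Ω) :=
      (Nat.Prime.pow_dvd_iff_le_factorization Nat.prime_two (Nat.factorial_ne_zero _)).1 h5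
    have h7 : 2 * Nat.card G ≤ aa (Nat.card Ω) := by
      rw [h2, aa, ← pow_succ']
      exact Nat.pow_le_pow_right (by norm_num) h6
    have h8 := two_mul_hh (n := Nat.card Ω) (by
      have : 2 ^ 1 ≤ 2 ^ e := Nat.pow_le_pow_right (by norm_num) he1
      omega)
    omega
  · rw [hcc hE]
    have h8 : 2 ≤ Nat.card Ω := by
      push Not at hE
      omega
    have h9 := two_mul_hh h8
    omega

end action

end Cfsg.Agent.Lib.NilpPerm.Trans
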