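import Cfsg.Agent.Lib.NilpPerm.Num

/-!
# The bound for transitive nilpotent groups
-/

set_option autoImplicit false

namespace Cfsg.Agent.Lib.NilpPerm.UU

open Cfsg.Agent.Lib.NilpPerm.Num
open scoped Nat

/-- The exponent of `p` in `(p ^ k)!`. -/
noncomputable def gg (p k : ℕ) : ℕ := ((p ^ k)!).factorization p

/-- The `p`-part of `(p ^ k)!`. -/
noncomputable def ww (p k : ℕ) : ℕ := p ^ gg p k

/-- The bound for a transitive nilpotent group of degree `m`. -/
noncomputable def UU (m : ℕ) : ℕ := m.factorization.prod ww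

lemma gg_zero (p : ℕ) : gg p 0 = 0 := by simp [gg]

lemma ww_zero (p : ℕ) : ww p 0 = 1 := by simp [ww, gg_zero]

lemma gg_succ {p : ℕ} (hp : p.Prime) (k : ℕ) : gg p (k + 1) = gg p k + p ^ k := by
  haveI : Fact p.Prime := ⟨hp⟩
  unfold gg
  rw [pow_succ', Nat.factorization_def _ hp, Nat.factorization_def _ hp,
    padicValNat_factorial_mul]

lemma gg_rel {p : ℕ} (hp : p.Prime) (k : ℕ) : (p - 1) * gg p k + 1 = p ^ k := by
  induction k with
  | zero => simp [gg_zero]
  | succ k ih =>
    rw [gg_succ hp, mul_add]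
    have h1 : (p - 1) * p ^ k + p ^ k = p ^ (k + 1) := by
      obtain ⟨q, rfl⟩ : ∃ q, p = q + 1 := ⟨p - 1, by have := hp.pos; omega⟩
      rw [Nat.add_sub_cancel, pow_succ]
      ring
    omega

lemma gg_succ' {p : ℕ} (hp : p.Prime) (k : ℕ) : gg p (k + 1) = p * gg p k + 1 := by
  rw [gg_succ hp, ← gg_rel hp k]
  obtain ⟨q, rfl⟩ : ∃ q, p = q + 1 := ⟨p - 1, by have := hp.pos; omega⟩
  rw [Nat.add_sub_cancel]
  ring

lemma ww_succ {p : ℕ} (hp : p.Prime) (k : ℕ) : ww p (k + 1) = p * (ww p k) ^ p := by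
  unfold ww
  rw [gg_succ' hp, pow_succ, pow_mul]
  ring

lemma UU_one : UU 1 = 1 := by simp [UU]

lemma UU_prime_pow {p : ℕ} (hp : p.Prime) (k : ℕ) : UU (p ^ k) = ww p k := by
  unfold UU
  rw [hp.factorization_pow, Finsupp.prod_single_index (ww_zero p)]

lemma UU_mul {x y : ℕ} (hx : x ≠ 0) (hy : y ≠ 0) (h : x.Coprime y) :
    UU (x * y) = UU x * UU y := by
  unfold UU
  rw [Nat.factorization_mul hx hy]
  exact Finsupp.prod_add_index_of_disjoint (by simpa using h.disjoint_primeFactors) _

lemma UU_prime {p : ℕ} (hp : p.Prime) : UU p = p := by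
  have := UU_prime_pow hp 1
  rw [pow_one] at this
  rw [this, ww_succ hp, ww_zero]
  simp

lemma aa_add_four (n : ℕ) : 8 * aa n ≤ aa (n + 4) := by
  unfold aa
  have e : vv (n + 4) = vv n + (n + 1).factorization 2 + (n + 2).factorization 2 +
      (n + 3).factorization 2 + (n + 4).factorization 2 := by
    rw [show n + 4 = (n + 3) + 1 by ring, vv_succ, show n + 3 = (n + 2) + 1 by ring, vv_succ,
      show n + 2 = (n + 1) + 1 by ring, vv_succ, vv_succ]
  have h2 : 3 + vv n ≤ vv (n + 4) := by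
    rw [e]
    have hcases : n % 4 = 0 ∨ n % 4 = 1 ∨ n % 4 = 2 ∨ n % 4 = 3 := by omega
    rcases hcases with h1 | h1 | h1 | h1
    · have := one_le_fact (m := n + 2) (by omega) (by omega)
      have := two_le_fact (m := n + 4) (by omega) (by omega)
      omega
    · have := one_le_fact (m := n + 1) (by omega) (by omega)
      have := two_le_fact (m := n + 3) (by omega) (by omega)
      omega
    · have := one_le_fact (m := n + 4) (by omega) (by omega)
      have := two_le_fact (m := n + 2) (by omega) (by omega)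
      omega
    · have := one_le_fact (m := n + 3) (by omega) (by omega)
      have := two_le_fact (m := n + 1) (by omega) (by omega)
      omega
  calc 8 * 2 ^ vv n = 2 ^ (3 + vv n) := by rw [pow_add]; norm_num
    _ ≤ 2 ^ vv (n + 4) := Nat.pow_le_pow_right (by norm_num) h2

lemma aa_pow_le (k x : ℕ) : (aa x) ^ k ≤ aa (k * x) := by
  induction k with
  | zero => simp [aa_zero]
  | succ k ih =>
    rw [pow_succ, show (k + 1) * x = k * x + x by ring]
    exact le_trans (Nat.mul_le_mul_right _ ih) (aa_add _ _)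

lemma two_mul_le_aa {n : ℕ} (h : 6 ≤ n) : 2 * n ≤ aa n := by
  induction n using Nat.strong_induction_on with
  | _ n ih =>
    by_cases h6 : n = 6
    · subst h6; rw [aa_six]; norm_num
    by_cases h7 : n = 7
    · subst h7; rw [aa_seven]; norm_num
    · have h8 := ih (n - 4) (by omega)
      by_cases h4 : 6 ≤ n - 4
      · have h9 := h8 h4
        have h10 := aa_add_four (n - 4)
        rw [show n - 4 + 4 = n by omega] at h10
        omega
      · -- 8 ≤ n ≤ 9
        have h10 := aa_add_four (n - 4)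
        rw [show n - 4 + 4 = n by omega] at h10
        have h11 := aa_mono (show 4 ≤ n - 4 by omega)
        rw [aa_four] at h11
        omega

lemma step_odd {p w A : ℕ} (hp : 2 ≤ p) (h : 2 * w ≤ A) : 2 * (p * w ^ p) ≤ A ^ p := by
  have h1 : 2 * p ≤ 2 ^ p := by
    obtain ⟨q, rfl⟩ : ∃ q, p = q + 1 := ⟨p - 1, by omega⟩
    rw [pow_succ]
    have := Nat.lt_two_pow_self (n := q)
    omega
  calc 2 * (p * w ^ p) = (2 * p) * w ^ p := by ring
    _ ≤ 2 ^ p * w ^ p := Nat.mul_le_mul_right _ h1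
    _ = (2 * w) ^ p := by rw [mul_pow]
    _ ≤ A ^ p := Nat.pow_le_pow_left h p

lemma pp_succ {p k : ℕ} (hp : p.Prime) (h : 2 * ww p k ≤ aa (p ^ k)) :
    2 * ww p (k + 1) ≤ aa (p ^ (k + 1)) := by
  rw [ww_succ hp, pow_succ']
  exact le_trans (step_odd hp.two_le h) (aa_pow_le _ _)

lemma ww_one {p : ℕ} (hp : p.Prime) : ww p 1 = p := by
  rw [ww_succ hp, ww_zero]; simp

/-- Prime powers of odd primes outside the exceptions. -/
lemma pp_odd {p k : ℕ} (hp : p.Prime) (h2 : p ≠ 2) (hk : 1 ≤ k)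
    (h31 : ¬ (p = 3 ∧ k = 1)) (h51 : ¬ (p = 5 ∧ k = 1)) (h32 : ¬ (p = 3 ∧ k = 2)) :
    2 * ww p k ≤ aa (p ^ k) := by
  by_cases hp3 : p = 3
  · subst hp3
    have hk3 : 3 ≤ k := by
      by_contra hc
      have : k = 1 ∨ k = 2 := by omega
      rcases this with rfl | rfl <;> simp_all
    induction k, hk3 using Nat.le_induction with
    | base =>
      have h1 : ww 3 1 = 3 := ww_one Nat.prime_three
      have h2 : ww 3 2 = 81 := by rw [ww_succ Nat.prime_three, h1]; norm_num
      have h3 : ww 3 3 = 3 ^ 13 := by rw [ww_succ Nat.prime_three, h2]; norm_num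
      rw [h3, show (3 : ℕ) ^ 3 = 27 by norm_num, aa_27]
      norm_num
    | succ k hk3 ih =>
      exact pp_succ Nat.prime_three (ih (by omega) (by simp; omega) (by simp) (by simp; omega))
  by_cases hp5 : p = 5
  · subst hp5
    have hk2 : 2 ≤ k := by
      by_contra hc
      have : k = 1 := by omega
      subst this
      simp_all
    have p5 : Nat.Prime 5 := by norm_num
    induction k, hk2 using Nat.le_induction with
    | base =>
      have h1 : ww 5 1 = 5 := ww_one p5
      have h2 : ww 5 2 = 5 ^ 6 := by rw [ww_succ p5, h1]; norm_num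
      rw [h2, show (5 : ℕ) ^ 2 = 25 by norm_num, aa_25]
      norm_num
    | succ k hk2 ih =>
      exact pp_succ p5 (ih (by omega) (by simp) (by simp; omega) (by simp))
  · have hp7 : 7 ≤ p := by
      have h3 := hp.two_le
      by_contra hc
      have h4 : p = 2 ∨ p = 3 ∨ p = 4 ∨ p = 5 ∨ p = 6 := by omega
      rcases h4 with rfl | rfl | rfl | rfl | rfl
      · exact h2 rfl
      · exact hp3 rfl
      · norm_num at hp
      · exact hp5 rfl
      · norm_num at hp
    clear h31 h51 h32
    induction k, hk using Nat.le_induction with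
    | base =>
      rw [ww_one hp, pow_one]
      exact two_mul_le_aa (by omega)
    | succ k hk ih =>
      exact pp_succ hp ih

/-- The dichotomy for `UU`. -/
def Good (m U : ℕ) : Prop :=
  (m = 1 ∧ U = 1) ∨ (m = 3 ∧ U = 3) ∨ (m = 5 ∧ U = 5) ∨ (m = 9 ∧ U = 81) ∨
    ((∃ e, 1 ≤ e ∧ m = 2 ^ e) ∧ U = aa m) ∨ 2 * U ≤ aa m

lemma Good.weak {m U : ℕ} (h : Good m U) : 2 * U ≤ 3 * aa m := by
  rcases h with ⟨rfl, rfl⟩ | ⟨rfl, rfl⟩ | ⟨rfl, rfl⟩ | ⟨rfl, rfl⟩ | ⟨_, rfl⟩ | h
  · simp [aa_one]
  · simp [aa_three]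
  · simp [aa_five]
  · simp [aa_nine]
  · have := aa_pos m
    omega
  · have := aa_pos m
    omega

lemma UU_two : UU 2 = 2 := UU_prime Nat.prime_two
lemma UU_three : UU 3 = 3 := UU_prime Nat.prime_three
lemma UU_five : UU 5 = 5 := UU_prime (by norm_num)

lemma aa_ten : aa 10 = 256 := by simp [aa, vv_eq]

lemma coprime_step {x y : ℕ} (hx : 1 < x) (hy : 1 < y) (h : x.Coprime y)
    (hgx : Good x (UU x)) (hgy : Good y (UU y)) : 2 * UU (x * y) ≤ aa (x * y) := by
  rw [UU_mul (by omega) (by omega) h]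
  by_cases hxy : x + y + 4 ≤ x * y
  · have h1 := hgx.weak
    have h2 := hgy.weak
    have h3 := aa_add x y
    have h4 := aa_add_four (x + y)
    have h5 := aa_mono hxy
    have h6 : 4 * (UU x * UU y) ≤ 9 * (aa x * aa y) := by
      calc 4 * (UU x * UU y) = (2 * UU x) * (2 * UU y) := by ring
        _ ≤ (3 * aa x) * (3 * aa y) := Nat.mul_le_mul h1 h2
        _ = 9 * (aa x * aa y) := by ring
    have h7 : 0 < aa x * aa y := Nat.mul_pos (aa_pos _) (aa_pos _)
    have h8 : 8 * (aa x * aa y) ≤ aa (x * y) := by omega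
    omega
  · have hx5 : x ≤ 5 := by
      by_contra hc
      have : x + y + 4 ≤ x * y := by nlinarith
      exact hxy this
    have hy5 : y ≤ 5 := by
      by_contra hc
      have : x + y + 4 ≤ x * y := by nlinarith
      exact hxy this
    interval_cases x <;> interval_cases y <;> first
      | (exfalso; revert h; decide)
      | (exfalso; revert hxy; decide)
      | simp [UU_two, UU_three, UU_five, aa_six, aa_ten]

theorem good (m : ℕ) : m ≠ 0 → Good m (UU m) := by
  induction m using Nat.recOnPosPrimePosCoprime with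
  | prime_pow p n hp hn =>
    intro _
    rw [UU_prime_pow hp]
    by_cases h2 : p = 2
    · subst h2
      right; right; right; right; left
      exact ⟨⟨n, hn, rfl⟩, rfl⟩
    by_cases h31 : p = 3 ∧ n = 1
    · obtain ⟨rfl, rfl⟩ := h31
      right; left
      exact ⟨by norm_num, ww_one Nat.prime_three⟩
    by_cases h51 : p = 5 ∧ n = 1
    · obtain ⟨rfl, rfl⟩ := h51
      right; right; left
      exact ⟨by norm_num, ww_one (by norm_num)⟩
    by_cases h32 : p = 3 ∧ n = 2
    · obtain ⟨rfl, rfl⟩ := h32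
      right; right; right; left
      refine ⟨by norm_num, ?_⟩
      rw [ww_succ Nat.prime_three, ww_one Nat.prime_three]
      norm_num
    right; right; right; right; right
    exact pp_odd hp h2 hn h31 h51 h32
  | zero => intro h; exact absurd rfl h
  | one => intro _; left; exact ⟨rfl, UU_one⟩
  | coprime a b ha hb hab iha ihb =>
    intro _
    right; right; right; right; right
    exact coprime_step ha hb hab (iha (by omega)) (ihb (by omega))

lemma UU_le_tau {m : ℕ} (hm : m ≠ 0) : UU m ≤ tau m := by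
  unfold tau
  split_ifs with h3
  · subst h3; rw [UU_three]
  · rcases good m hm with ⟨rfl, h⟩ | ⟨rfl, h⟩ | ⟨rfl, h⟩ | ⟨rfl, h⟩ | ⟨_, h⟩ | h
    · simp [h, aa_one]
    · exact absurd rfl h3
    · simp [h, aa_five]
    · simp [h, aa_nine]
    · exact h.le
    · omega

/-- The even bound, in the three forms needed. -/
lemma UU_cases {m : ℕ} (hm : m ≠ 0) :
    ((m = 1 ∨ m = 3 ∨ m = 5 ∨ m = 9) ∧ UU m = cc m) ∨ (∃ e, 1 ≤ e ∧ m = 2 ^ e) ∨
      (¬ (m = 1 ∨ m = 3 ∨ m = 5 ∨ m = 9) ∧ 2 * UU m ≤ aa m) := by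
  by_cases hE : m = 1 ∨ m = 3 ∨ m = 5 ∨ m = 9
  · left
    refine ⟨hE, ?_⟩
    rcases good m hm with ⟨rfl, h⟩ | ⟨rfl, h⟩ | ⟨rfl, h⟩ | ⟨rfl, h⟩ | ⟨⟨e, he1, he2⟩, h⟩ | h
    · simp [h, cc]
    · simp [h, cc]
    · simp [h, cc]
    · simp [h, cc]
    · rcases hE with rfl | rfl | rfl | rfl
      · have : 2 ^ 1 ≤ 2 ^ e := Nat.pow_le_pow_right (by norm_num) he1
        omega
      · simp [UU_three, cc]
      · simp [UU_five, cc]
      · exfalso
        have h2 : (2 : ℕ) ∣ 9 := by
          rw [he2]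
          exact dvd_pow_self 2 (by omega)
        omega
    · rcases hE with rfl | rfl | rfl | rfl
      · simp [aa_one] at h
        have := h
        have hu : UU 1 = 1 := UU_one
        omega
      · simp [UU_three, aa_three] at h
      · simp [UU_five, cc]
      · have hw : UU 9 = 81 := by
          have : UU (3 ^ 2) = ww 3 2 := UU_prime_pow Nat.prime_three 2
          rw [ww_succ Nat.prime_three, ww_one Nat.prime_three] at this
          simpa using this
        simp [hw, cc]
  · rcases good m hm with ⟨rfl, h⟩ | ⟨rfl, h⟩ | ⟨rfl, h⟩ | ⟨rfl, h⟩ | ⟨he, h⟩ | h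
    · simp at hE
    · simp at hE
    · simp at hE
    · simp at hE
    · right; left; exact he
    · right; right; exact ⟨hE, h⟩

end Cfsg.Agent.Lib.NilpPerm.UU
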