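import Cfsg.Agent.Lib.NilpPerm.Orbit

/-!
# Uniqueness of the largest nilpotent subgroups
-/

set_option autoImplicit false

namespace Cfsg.Agent.Lib.NilpPerm.Unique

open Cfsg.Agent.Lib.NilpPerm.Num Cfsg.Agent.Lib.NilpPerm.Orbit Cfsg.Agent.Lib.NilpPerm.Final
open scoped Nat
open MulAction Group

variable {G : Type*} [Group G] [Finite G]

lemma factorization_three_mul (k : ℕ) : (3 * 2 ^ k).factorization 2 = k := by
  rw [Nat.factorization_mul (by norm_num) (by positivity), Finsupp.add_apply,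
    Nat.prime_two.factorization_pow]
  have : (3 : ℕ).factorization 2 = 0 := Nat.factorization_eq_zero_of_not_dvd (by norm_num)
  simp [this]

instance fact_three : Fact (Nat.Prime 3) := ⟨Nat.prime_three⟩

/-- Decomposition of a nilpotent group of order `3 * 2 ^ k`. -/
lemma decomp {N : Subgroup G} [IsNilpotent N] {k : ℕ} (hN : Nat.card N = 3 * 2 ^ k) {c : G}
    (hc : c ∈ N) (hc3 : orderOf c = 3) :
    ∃ R : Subgroup G, R ≤ N ∧ Nat.card R = 2 ^ k ∧ (∀ r ∈ R, r * c = c * r) ∧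
      N = Subgroup.zpowers c ⊔ R := by
  obtain ⟨R₀⟩ : Nonempty (Sylow 2 N) := inferInstance
  have hR₀ : Nat.card R₀ = 2 ^ k := by
    rw [Sylow.card_eq_multiplicity, hN, factorization_three_mul]
  refine ⟨(R₀ : Subgroup N).map N.subtype, Subgroup.map_subtype_le _, ?_, ?_, ?_⟩
  · rw [Subgroup.card_map_of_injective N.subtype_injective]
    exact hR₀
  · rintro _ ⟨r, hr, rfl⟩
    -- the Sylow 3-subgroup containing c
    have h1 : IsPGroup 3 (Subgroup.zpowers (⟨c, hc⟩ : N)) := by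
      apply IsPGroup.of_card (n := 1)
      rw [Nat.card_zpowers, pow_one, Subgroup.orderOf_mk, hc3]
    obtain ⟨Q, hQ⟩ := h1.exists_le_sylow
    have hd : Disjoint (Q : Subgroup N) (R₀ : Subgroup N) :=
      IsPGroup.disjoint_of_ne 3 2 (by norm_num) _ _ Q.isPGroup' R₀.isPGroup'
    have hy : (⟨c, hc⟩ : N) ∈ (Q : Subgroup N) := hQ (Subgroup.mem_zpowers _)
    have h2 := Subgroup.commute_of_normal_of_disjoint _ _ inferInstance inferInstance hd _ r hy hr
    have h3 := congrArg Subtype.val h2.eq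
    exact h3.symm
  · symm
    refine Subgroup.eq_of_le_of_card_ge ?_ ?_
    · apply sup_le
      · rw [Subgroup.zpowers_le]; exact hc
      · exact Subgroup.map_subtype_le _
    · set S := Subgroup.zpowers c ⊔ (R₀ : Subgroup N).map N.subtype with hS
      have h3 : Nat.card (Subgroup.zpowers c) ∣ Nat.card S :=
        Subgroup.card_dvd_of_le le_sup_left
      have h2 : Nat.card ((R₀ : Subgroup N).map N.subtype) ∣ Nat.card S :=
        Subgroup.card_dvd_of_le le_sup_right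
      rw [Nat.card_zpowers, hc3] at h3
      rw [Subgroup.card_map_of_injective N.subtype_injective] at h2
      change Nat.card R₀ ∣ _ at h2
      rw [hR₀] at h2
      have hco : Nat.Coprime 3 (2 ^ k) := Nat.Coprime.pow_right _ (by norm_num)
      have h4 := hco.mul_dvd_of_dvd_of_dvd h3 h2
      rw [hN]
      exact Nat.le_of_dvd Nat.card_pos h4

/-- A commuting product of an element of order 3 and a 2-group. -/
lemma exists_nilp {c : G} (hc3 : orderOf c = 3) (S : Subgroup G) (j : ℕ) (hS : Nat.card S = 2 ^ j)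
    (hcomm : ∀ s ∈ S, s * c = c * s) :
    ∃ W : Subgroup G, IsNilpotent W ∧ Nat.card W = 3 * 2 ^ j := by
  have hcm : ∀ (x : Subgroup.zpowers c) (s : S),
      Commute ((Subgroup.zpowers c).subtype x) (S.subtype s) := by
    rintro ⟨_, i, rfl⟩ ⟨s, hs⟩
    exact ((show Commute s c from hcomm s hs).zpow_right i).symm
  let Φ := MonoidHom.noncommCoprod (Subgroup.zpowers c).subtype S.subtype hcm
  have hΦ : Function.Injective Φ := by
    rw [injective_iff_map_eq_one]
    rintro ⟨⟨x, hx⟩, ⟨s, hs⟩⟩ h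
    have h1 : x * s = 1 := h
    have hx3 : x ^ 3 = 1 := by
      have : (⟨x, hx⟩ : Subgroup.zpowers c) ^ Nat.card (Subgroup.zpowers c) = 1 := pow_card_eq_one'
      rw [Nat.card_zpowers, hc3] at this
      exact congrArg Subtype.val this
    have hs2 : s ^ (2 ^ j) = 1 := by
      have : (⟨s, hs⟩ : S) ^ Nat.card S = 1 := pow_card_eq_one'
      rw [hS] at this
      exact congrArg Subtype.val this
    have hxs : x = s⁻¹ := eq_inv_of_mul_eq_one_left h1
    have hx2 : x ^ (2 ^ j) = 1 := by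
      rw [hxs, inv_pow, hs2, inv_one]
    have hco : Nat.Coprime 3 (2 ^ j) := Nat.Coprime.pow_right _ (by norm_num)
    have hxo : orderOf x ∣ Nat.gcd 3 (2 ^ j) :=
      Nat.dvd_gcd (orderOf_dvd_of_pow_eq_one hx3) (orderOf_dvd_of_pow_eq_one hx2)
    rw [hco] at hxo
    have hx1 : x = 1 := orderOf_eq_one_iff.1 (Nat.dvd_one.1 hxo)
    subst hx1
    have hs1 : s = 1 := by
      simpa using h1
    subst hs1
    rfl
  haveI : IsNilpotent (Subgroup.zpowers c) := by
    apply IsPGroup.isNilpotent (p := 3)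
    apply IsPGroup.of_card (n := 1)
    rw [Nat.card_zpowers, pow_one, hc3]
  haveI : IsNilpotent S := IsPGroup.isNilpotent (IsPGroup.of_card hS)
  refine ⟨Φ.range, Group.nilpotent_of_surjective Φ.rangeRestrict
    (MonoidHom.rangeRestrict_surjective _), ?_⟩
  rw [← Nat.card_congr (MonoidHom.ofInjective hΦ).toEquiv, Nat.card_prod, Nat.card_zpowers, hc3, hS]

/-- Conjugacy of tight subgroups sharing an element of order 3. -/
theorem conj_of_common (k : ℕ) (hB : ∀ N : Subgroup G, IsNilpotent N → Nat.card N ≤ 3 * 2 ^ k)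
    {N₁ N₂ : Subgroup G} [IsNilpotent N₁] [IsNilpotent N₂] (h₁ : Nat.card N₁ = 3 * 2 ^ k)
    (h₂ : Nat.card N₂ = 3 * 2 ^ k) {c : G} (hc₁ : c ∈ N₁) (hc₂ : c ∈ N₂) (hc3 : orderOf c = 3) :
    ∃ g : G, N₂ = N₁.map (MulAut.conj g).toMonoidHom := by
  obtain ⟨R₁, hR₁, hcR₁, hcomm₁, hsup₁⟩ := decomp h₁ hc₁ hc3
  obtain ⟨R₂, hR₂, hcR₂, hcomm₂, hsup₂⟩ := decomp h₂ hc₂ hc3
  let C : Subgroup G := Subgroup.centralizer {c}
  have hmemC : ∀ x, x * c = c * x → x ∈ C := by
    intro x hx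
    rw [Subgroup.mem_centralizer_iff]
    intro y hy
    rw [Set.mem_singleton_iff] at hy
    subst hy
    exact hx.symm
  have hCc : ∀ x ∈ C, x * c = c * x := by
    intro x hx
    rw [Subgroup.mem_centralizer_iff] at hx
    exact (hx c rfl).symm
  have hleC₁ : R₁ ≤ C := fun x hx => hmemC x (hcomm₁ x hx)
  have hleC₂ : R₂ ≤ C := fun x hx => hmemC x (hcomm₂ x hx)
  -- the Sylow property of R in C
  have key : ∀ R : Subgroup G, R ≤ C → Nat.card R = 2 ^ k →
      ∃ S : Sylow 2 C, (S : Subgroup C) = R.subgroupOf C := by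
    intro R hRC hcR
    have hp : IsPGroup 2 (R.subgroupOf C) := by
      apply IsPGroup.of_card (n := k)
      rw [← hcR]
      exact Nat.card_congr (Subgroup.subgroupOfEquivOfLe hRC).toEquiv
    obtain ⟨S, hS⟩ := hp.exists_le_sylow
    refine ⟨S, ?_⟩
    symm
    refine Subgroup.eq_of_le_of_card_ge hS ?_
    have hcard1 : Nat.card (R.subgroupOf C) = 2 ^ k := by
      rw [← hcR]
      exact Nat.card_congr (Subgroup.subgroupOfEquivOfLe hRC).toEquiv
    rw [hcard1]
    have hj := Sylow.card_eq_multiplicity S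
    set j := (Nat.card C).factorization 2
    obtain ⟨W, hW, hWc⟩ := exists_nilp hc3 ((S : Subgroup C).map C.subtype) j
      (by rw [Subgroup.card_map_of_injective C.subtype_injective]; exact hj)
      (by
        rintro _ ⟨s, _, rfl⟩
        exact hCc s.1 s.2)
    have h3 := hB W hW
    rw [hWc] at h3
    have h4 : 2 ^ j ≤ 2 ^ k := by omega
    rw [hj]
    exact h4
  obtain ⟨S₁, hS₁⟩ := key R₁ hleC₁ hcR₁
  obtain ⟨S₂, hS₂⟩ := key R₂ hleC₂ hcR₂
  obtain ⟨h, hh⟩ := MulAction.exists_smul_eq C S₁ S₂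
  refine ⟨(h : G), ?_⟩
  symm
  refine Subgroup.eq_of_le_of_card_ge ?_ ?_
  · rw [Subgroup.map_le_iff_le_comap, hsup₁]
    apply sup_le
    · rw [Subgroup.zpowers_le, Subgroup.mem_comap]
      have : (MulAut.conj (h : G)).toMonoidHom c = c := by
        change (h : G) * c * (h : G)⁻¹ = c
        rw [hCc _ h.2, mul_inv_cancel_right]
      rw [this]
      exact hc₂
    · intro x hx
      rw [Subgroup.mem_comap]
      have h1 : (⟨x, hleC₁ hx⟩ : C) ∈ (S₁ : Subgroup C) := by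
        rw [hS₁, Subgroup.mem_subgroupOf]
        exact hx
      have h2 : (MulAut.conj h) (⟨x, hleC₁ hx⟩ : C) ∈ (S₂ : Subgroup C) := by
        rw [← hh]
        exact Subgroup.smul_mem_pointwise_smul _ (MulAut.conj h) _ h1
      rw [hS₂, Subgroup.mem_subgroupOf] at h2
      exact hR₂ h2
  · rw [Subgroup.card_map_of_injective (MulAut.conj (h : G)).injective, h₁, h₂]

/-- The abstract uniqueness statement. -/
theorem unique_general (k : ℕ) (hB : ∀ N : Subgroup G, IsNilpotent N → Nat.card N ≤ 3 * 2 ^ k)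
    (Good3 : G → Prop)
    (hgood : ∀ N : Subgroup G, IsNilpotent N → Nat.card N = 3 * 2 ^ k → ∀ c ∈ N, orderOf c = 3 →
      Good3 c)
    (hconj : ∀ c₁ c₂, Good3 c₁ → Good3 c₂ → IsConj c₁ c₂)
    (N₁ N₂ : Subgroup G) (hn₁ : IsNilpotent N₁) (hn₂ : IsNilpotent N₂)
    (h₁ : Nat.card N₁ = 3 * 2 ^ k) (h₂ : Nat.card N₂ = 3 * 2 ^ k) :
    ∃ g : G, N₂ = N₁.map (MulAut.conj g).toMonoidHom := by
  have h3 : (3 : ℕ).Prime := Nat.prime_three
  obtain ⟨c₁, hc₁⟩ := exists_prime_orderOf_dvd_card' (G := N₁) 3 (by rw [h₁]; exact dvd_mul_right _ _)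
  obtain ⟨c₂, hc₂⟩ := exists_prime_orderOf_dvd_card' (G := N₂) 3 (by rw [h₂]; exact dvd_mul_right _ _)
  have hc₁' : orderOf (c₁ : G) = 3 := by rwa [Subgroup.orderOf_coe]
  have hc₂' : orderOf (c₂ : G) = 3 := by rwa [Subgroup.orderOf_coe]
  obtain ⟨g, hg⟩ := isConj_iff.1 (hconj _ _ (hgood N₁ hn₁ h₁ c₁ c₁.2 hc₁') (hgood N₂ hn₂ h₂ c₂ c₂.2 hc₂'))
  let N₃ := N₁.map (MulAut.conj g).toMonoidHom
  have hcN₃ : (c₂ : G) ∈ N₃ := ⟨c₁, c₁.2, hg⟩
  have h₃ : Nat.card N₃ = 3 * 2 ^ k := by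
    rw [Subgroup.card_map_of_injective (MulAut.conj g).injective, h₁]
  haveI : IsNilpotent N₃ :=
    Group.nilpotent_of_mulEquiv (N₁.equivMapOfInjective _ (MulAut.conj g).injective)
  obtain ⟨h, hh⟩ := conj_of_common k hB h₃ h₂ hcN₃ c₂.2 hc₂'
  refine ⟨h * g, ?_⟩
  rw [hh, Subgroup.map_map]
  congr 1
  ext x
  simp [mul_assoc]

section concrete

variable {n : ℕ}

/-- Elements of order 3 in tight subgroups of symmetric groups are 3-cycles. -/
theorem isThreeCycle_perm (k : ℕ) (hk : 4 ≤ n → aa (n - 4) < 2 ^ k)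
    (N : Subgroup (Equiv.Perm (Fin n))) (hN : IsNilpotent N) (hc : Nat.card N = 3 * 2 ^ k)
    (c : Equiv.Perm (Fin n)) (hcN : c ∈ N) (hc3 : orderOf c = 3) : c.IsThreeCycle := by
  by_contra hnot
  obtain ⟨R, _, hcR, hcomm, _⟩ := decomp hc hcN hc3
  have h1 : c ^ 3 = 1 := by rw [← hc3]; exact pow_orderOf_eq_one c
  have h2 : c ≠ 1 := by
    rintro rfl
    simp at hc3
  obtain ⟨h3, h4⟩ := le_aa_of_centralizes h1 h2 hnot R k hcR hcomm
  rw [Fintype.card_fin] at h3 h4
  have := hk h3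
  omega

/-- Elements of order 3 in tight subgroups of alternating groups are 3-cycles. -/
theorem isThreeCycle_alt (k : ℕ) (hk : 4 ≤ n → aa (n - 4) < 2 ^ k)
    (N : Subgroup (alternatingGroup (Fin n))) (hN : IsNilpotent N) (hc : Nat.card N = 3 * 2 ^ k)
    (c : alternatingGroup (Fin n)) (hcN : c ∈ N) (hc3 : orderOf c = 3) :
    (c : Equiv.Perm (Fin n)).IsThreeCycle := by
  refine isThreeCycle_perm k hk (toPermSub N) (nilp_toPermSub N) (by rw [card_toPermSub, hc])
    (c : Equiv.Perm (Fin n)) ⟨c, hcN, rfl⟩ (by rw [Subgroup.orderOf_coe, hc3])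

end concrete

end Cfsg.Agent.Lib.NilpPerm.Unique
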